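import Cfsg.Agent.H410.OZ.Tor

/-!
# S4842: elliptic elements, arithmetic of the torus of `GL(E)` (helper410)

`γ` a generator of the multiplicative group of the extension of degree `m = i + 1` of `F`, `N = q ^ m - 1`.
* `Good N q m s a` : the conditions on `a` for `γ ^ a`;
* `Pair N q m s a b` : the conditions for the non-conjugacy of the elements for `γ ^ a` and `γ ^ b`;
* `exists_two` : two non-conjugate elliptic elements.
-/

set_option autoImplicit false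
set_option linter.unusedSectionVars false

namespace Cfsg.Agent.H410.OZ

open CoxeterSystem Cfsg.Agent.ChevalleyStructure.CoxeterGeom Cfsg.Agent.Tits.Roots Cfsg.Agent.Nodes.TypeC
open Cfsg.Agent.Nodes Cfsg.Agent.Nodes.Comb Cfsg.Agent.Nodes.Reps Cfsg.Agent.Nodes.WittRoot Cfsg.Agent.Nodes.BNOf
open Cfsg.Agent.Nodes.WittRGD Cfsg.Agent.Nodes.RGDLib Cfsg.Agent.Nodes.WittAll
open Cfsg.Agent.TitsThree Cfsg.Agent.TitsThree.Siegel Cfsg.Agent.TitsThree.WittFrame
  Cfsg.Agent.TitsThree.WittWeyl Cfsg.Agent.TitsThree.FrameCN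
open Cfsg.Agent.Nodes.StabComb Cfsg.Agent.Nodes.Bruhat Cfsg.Agent.Nodes.LeviDec
open Cfsg.Agent.H62.PCFrame Cfsg.Agent.H62.PCWitt Cfsg.Agent.H985.VZ Module

section Field

open Polynomial

variable {F : Type*} [Field F] [Finite F] {L : Type*} [Field L] [Finite L] [Algebra F L]

theorem exists_pow_of_root {z w : L} (h : aeval w (minpoly F z) = 0) :
    ∃ j < finrank F L, w = z ^ Nat.card F ^ j := by
  have := Fintype.ofFinite F
  have : FiniteDimensional F L := Module.Finite.of_finite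
  have hz : IsIntegral F z := Algebra.IsIntegral.isIntegral z
  have h1 : minpoly F z = minpoly F w :=
    minpoly.eq_of_irreducible_of_monic (minpoly.irreducible hz) h (minpoly.monic hz)
  obtain ⟨σ, hσ⟩ := (Normal.minpoly_eq_iff_mem_orbit (F := F) L).1 h1.symm
  obtain ⟨⟨j, hj⟩, rfl⟩ := (FiniteField.bijective_frobeniusAlgEquivOfAlgebraic_pow F L).2 σ
  refine ⟨j, hj, ?_⟩
  rw [← hσ]
  change ((FiniteField.frobeniusAlgEquivOfAlgebraic F L) ^ j) z = _
  rw [AlgEquiv.coe_pow, FiniteField.coe_frobeniusAlgEquivOfAlgebraic_iterate, Nat.card_eq_fintype_card]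

theorem adjoin_eq_top {z : L} (hz0 : z ≠ 0)
    (hz : ∀ d, d ∣ finrank F L → d < finrank F L → z ^ (Nat.card F ^ d - 1) ≠ 1) : Algebra.adjoin F {z} = ⊤ := by
  have : FiniteDimensional F L := Module.Finite.of_finite
  have hzi : IsIntegral F z := Algebra.IsIntegral.isIntegral z
  have h1 : (IntermediateField.adjoin F {z}).toSubalgebra = Algebra.adjoin F {z} :=
    IntermediateField.adjoin_simple_toSubalgebra_of_isAlgebraic hzi.isAlgebraic
  rw [← h1]
  set A := IntermediateField.adjoin F {z} with hA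
  have h2 : finrank F A ∣ finrank F L := Dvd.intro _ (finrank_mul_finrank F A L)
  have h3 : z ^ (Nat.card F ^ finrank F A - 1) = 1 := by
    have : Fintype A := Fintype.ofFinite A
    have h4 : Nat.card A = Nat.card F ^ finrank F A := Module.natCard_eq_pow_finrank
    have h5 := FiniteField.pow_card_sub_one_eq_one (⟨z, IntermediateField.mem_adjoin_simple_self F z⟩ : A)
      (fun h => hz0 (congrArg Subtype.val h))
    rw [← Nat.card_eq_fintype_card, h4] at h5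
    exact congrArg Subtype.val h5
  have h4 : finrank F A = finrank F L := by
    rcases lt_or_eq_of_le (Nat.le_of_dvd finrank_pos h2) with h5 | h5
    · exact absurd h3 (hz _ h2 h5)
    · exact h5
  have h5 : A = ⊤ := IntermediateField.eq_of_le_of_finrank_eq le_top (by rw [h4, IntermediateField.finrank_top'])
  rw [h5]
  rfl

/-- the conditions on the exponent -/
structure Good (N q m s a : ℕ) : Prop where
  adj : ∀ d, d ∣ m → d < m → ¬ N ∣ a * (q ^ d - 1)
  inv : ∀ j < m, ¬ N ∣ a * (q ^ j + 1)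
  pow : ¬ N ∣ a * s

/-- the conditions on two exponents -/
structure Pair (N q m s a b : ℕ) : Prop where
  pos : ∀ j < m, ¬ (N : ℤ) ∣ 2 * b - 2 * (a * (q : ℤ) ^ j)
  neg : ∀ j < m, ¬ N ∣ 2 * b + 2 * (a * q ^ j)
  pow : s = q + 1 ∧ ¬ N ∣ b * s ∨ ¬ N ∣ 2 * (b * s)

variable {γ : Lˣ} {N q m : ℕ} (hN : orderOf γ = N) (hq : Nat.card F = q) (hm : finrank F L = m)

include hN

theorem pow_eq_one_iff' {a : ℕ} : ((γ : L)) ^ a = 1 ↔ N ∣ a := by
  rw [← hN, orderOf_dvd_iff_pow_eq_one, ← Units.val_pow_eq_pow_val, Units.val_eq_one]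

include hq hm

theorem Good.adjoin {s a : ℕ} (h : Good N q m s a) : Algebra.adjoin F {((γ ^ a : Lˣ) : L)} = ⊤ := by
  refine adjoin_eq_top (Units.ne_zero _) fun d hd hlt h1 => ?_
  rw [Units.val_pow_eq_pow_val, ← pow_mul, pow_eq_one_iff' hN, hq] at h1
  exact h.adj d (hm ▸ hd) (hm ▸ hlt) h1

theorem Good.root {s a : ℕ} (h : Good N q m s a) :
    aeval ((γ ^ a : Lˣ) : L) (minpoly F (((γ ^ a)⁻¹ : Lˣ) : L)) ≠ 0 := by
  intro h0
  obtain ⟨j, hj, e⟩ := exists_pow_of_root h0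
  have e2 : (γ ^ a : Lˣ) = ((γ ^ a)⁻¹) ^ Nat.card F ^ j := Units.ext (by rw [Units.val_pow_eq_pow_val]; exact e)
  rw [inv_pow, eq_inv_iff_mul_eq_one, ← pow_succ', ← pow_mul, ← orderOf_dvd_iff_pow_eq_one, hN, hq] at e2
  exact h.inv j (hm ▸ hj) e2

omit hq hm in
theorem Good.ne {s a : ℕ} (h : Good N q m s a) : ((γ ^ a : Lˣ) : L) ^ s ≠ 1 := by
  rw [Units.val_pow_eq_pow_val, ← pow_mul]
  exact fun h1 => h.pow ((pow_eq_one_iff' hN).1 h1)

theorem Pair.root {s a b : ℕ} (h : Pair N q m s a b) {c : F} (hc : c * c = 1) :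
    aeval (algebraMap F L c * ((γ ^ b : Lˣ) : L)) (minpoly F ((γ ^ a : Lˣ) : L)) ≠ 0 := by
  intro h0
  obtain ⟨j, hj, e⟩ := exists_pow_of_root h0
  have hcc : algebraMap F L c * algebraMap F L c = 1 := by rw [← map_mul, hc, map_one]
  have e2 : ((γ ^ b : Lˣ) : L) * ((γ ^ b : Lˣ) : L) = (((γ ^ a : Lˣ) : L) ^ Nat.card F ^ j) ^ 2 := by
    rw [← e, mul_pow, pow_two, hcc, one_mul, pow_two]
  have e3 : (γ ^ b * γ ^ b : Lˣ) = ((γ ^ a) ^ Nat.card F ^ j) ^ 2 := Units.ext (by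
    simp only [Units.val_mul, Units.val_pow_eq_pow_val] at e2 ⊢
    exact e2)
  rw [← pow_add, ← pow_mul, ← pow_mul, hq] at e3
  have e4 : γ ^ (2 * (b : ℤ) - 2 * (a * (q : ℤ) ^ j)) = 1 := by
    rw [zpow_sub, mul_inv_eq_one]
    have h1 : (2 * (b : ℤ)) = ((b + b : ℕ) : ℤ) := by push_cast; ring
    have h2 : (2 * (a * (q : ℤ) ^ j)) = ((a * q ^ j * 2 : ℕ) : ℤ) := by push_cast; ring
    rw [h1, h2, zpow_natCast, zpow_natCast, e3, mul_assoc]
  rw [← orderOf_dvd_iff_zpow_eq_one, hN] at e4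
  exact h.pos j (hm ▸ hj) e4

theorem Pair.root_inv {s a b : ℕ} (h : Pair N q m s a b) {c : F} (hc : c * c = 1) :
    aeval (algebraMap F L c * ((γ ^ b : Lˣ) : L)) (minpoly F (((γ ^ a)⁻¹ : Lˣ) : L)) ≠ 0 := by
  intro h0
  obtain ⟨j, hj, e⟩ := exists_pow_of_root h0
  have hcc : algebraMap F L c * algebraMap F L c = 1 := by rw [← map_mul, hc, map_one]
  have e2 : ((γ ^ b : Lˣ) : L) * ((γ ^ b : Lˣ) : L) = ((((γ ^ a)⁻¹ : Lˣ) : L) ^ Nat.card F ^ j) ^ 2 := by
    rw [← e, mul_pow, pow_two, hcc, one_mul, pow_two]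
  have e3 : (γ ^ b * γ ^ b : Lˣ) = (((γ ^ a)⁻¹) ^ Nat.card F ^ j) ^ 2 := Units.ext (by
    simp only [Units.val_mul, Units.val_pow_eq_pow_val] at e2 ⊢
    exact e2)
  rw [inv_pow, inv_pow, eq_inv_iff_mul_eq_one, ← pow_add, ← pow_mul, ← pow_mul, ← pow_add,
    ← orderOf_dvd_iff_pow_eq_one, hN, hq] at e3
  refine h.neg j (hm ▸ hj) ?_
  have e4 : 2 * b + 2 * (a * q ^ j) = b + b + a * (q ^ j * 2) := by ring
  rwa [e4]

omit hm in
theorem Pair.ne {s a b : ℕ} (h : Pair N q m s a b) {c : F} (hc : c * c = 1) :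
    (algebraMap F L c * ((γ ^ b : Lˣ) : L)) ^ s ≠ 1 := by
  intro h0
  have hcc : algebraMap F L c * algebraMap F L c = 1 := by rw [← map_mul, hc, map_one]
  rcases h.pow with ⟨hs, h1⟩ | h1
  · have : Fintype F := Fintype.ofFinite F
    have h2 : c ^ s = 1 := by
      rw [hs, pow_succ, ← hq, Nat.card_eq_fintype_card, FiniteField.pow_card, hc]
    rw [mul_pow, ← map_pow, h2, map_one, one_mul, Units.val_pow_eq_pow_val, ← pow_mul, pow_eq_one_iff' hN] at h0
    exact h1 h0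
  · have h2 : ((algebraMap F L c * ((γ ^ b : Lˣ) : L)) ^ s) ^ 2 = 1 := by rw [h0, one_pow]
    rw [← pow_mul, mul_comm s 2, pow_mul, mul_pow, pow_two (algebraMap F L c), hcc, one_mul,
      Units.val_pow_eq_pow_val, ← pow_mul, ← pow_mul, pow_eq_one_iff' hN] at h2
    exact h1 (by rw [show 2 * (b * s) = b * (2 * s) by ring]; exact h2)

end Field

section Model

variable {F : Type*} [Field F] [Finite F] {V : Type*} [AddCommGroup V] [Module F V] [Finite V] {H : HForm F V} {n : ℕ}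
  {Fr : Frame H (Fin n)} {K : Type*} [Group K] {M : Model Fr K}
  {W : Type*} [Group W] {cs : CoxeterSystem (CoxeterMatrix.B n) W} {p : ℕ} [Fact p.Prime]
  [CharP F p] (hA : AmbT Fr p M.I) {p0 : Fr.Adm} (hp0 : p0.c ≠ 0) (hn : 0 < n)

include hA hp0 hn

/-- **two non-conjugate elliptic elements** -/
theorem exists_two (cs : CoxeterSystem (CoxeterMatrix.B n) W) (hσ : ∀ a, H.σ a = a) (i : Fin n) {s : ℕ}
    {D : V ≃ₗ[F] V} (hD : Comp Fr i s D)
    (hiso : ∀ U : Submodule F V, U ≤ Mid Fr i → (∀ x ∈ U, ∀ y ∈ U, H.h x y = 0) → (∀ x ∈ U, D x ∈ U) → U = ⊥)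
    (hnd : ∀ v ∈ Mid Fr i, (∀ w ∈ Mid Fr i, H.h v w = 0) → v = 0) {e : ℕ}
    (hI : ∀ (g : V ≃ₗ[F] V), H.IsIso g → g * D = D * g → (∀ v ∈ Mid Fr i, g v = v) → g ^ e * D ∈ M.I) {a b : ℕ}
    (ha : Good (Nat.card F ^ ((i : ℕ) + 1) - 1) (Nat.card F) (i + 1) s (a * e))
    (hb : Good (Nat.card F ^ ((i : ℕ) + 1) - 1) (Nat.card F) (i + 1) s (b * e))
    (hab : Pair (Nat.card F ^ ((i : ℕ) + 1) - 1) (Nat.card F) (i + 1) s (a * e) (b * e)) :
    ∃ t t' : K, Ell cs (isCartan n) (WittModel.T M) (WittModel.X M) {i}ᶜ t ∧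
      Ell cs (isCartan n) (WittModel.T M) (WittModel.X M) {i}ᶜ t' ∧ ¬ IsConj t t' := by
  let L := FiniteField.Extension F p (i + 1)
  have hfr : finrank F L = i + 1 := FiniteField.finrank_extension F p (i + 1)
  have : FiniteDimensional F L := Module.Finite.of_finite
  have hcard : Fintype.card {k : Fin n // k ≤ i} = i + 1 := by
    rw [Fintype.card_subtype]
    have : (Finset.univ.filter fun k : Fin n => k ≤ i) = Finset.Iic i := by
      ext k; simp
    rw [this, Fin.card_Iic]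
  have β : Basis {k : Fin n // k ≤ i} F L :=
    (finBasis F L).reindex ((finCongr hfr).trans (Fintype.equivFinOfCardEq hcard).symm)
  have hcL : Nat.card Lˣ = Nat.card F ^ ((i : ℕ) + 1) - 1 := by
    have h1 : Nat.card L = Nat.card F ^ ((i : ℕ) + 1) := FiniteField.natCard_extension F p (i + 1)
    rw [Nat.card_units, h1]
  obtain ⟨γ, hγ⟩ := IsCyclic.exists_generator (α := Lˣ)
  have hord : orderOf γ = Nat.card F ^ ((i : ℕ) + 1) - 1 := by rw [orderOf_eq_card_of_forall_mem_zpowers hγ, hcL]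
  have hmem : ∀ k : ℕ, gl Fr β (γ ^ (k * e)) * D ∈ M.I := fun k => by
    rw [pow_mul, map_pow]
    refine hI _ (isIso_gl hσ _) ?_ fun v hv => gl_Mid _ hv
    ext v
    obtain ⟨x, hx, y, hy, w, hw, rfl⟩ := exists_decomp (Fr := Fr) i v
    obtain ⟨x, rfl⟩ := exists_eE β hx
    obtain ⟨l, rfl⟩ := exists_fF β hy
    change gl Fr β (γ ^ k) (D (eE Fr β x + fF Fr β l + w)) = D (gl Fr β (γ ^ k) (eE Fr β x + fF Fr β l + w))
    simp only [map_add, hD.eE, hD.fF, gl_eE, gl_fF, gl_Mid _ hw, gl_Mid _ (hD.mid hw)]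
  refine ⟨M.φ ⟨_, hmem a⟩, M.φ ⟨_, hmem b⟩, ?_, ?_, ?_⟩
  · exact ell_gl hA hp0 hn hD (hmem a) (ha.adjoin hord rfl hfr) (ha.ne hord) (ha.root hord rfl hfr) hiso hnd
  · exact ell_gl hA hp0 hn hD (hmem b) (hb.adjoin hord rfl hfr) (hb.ne hord) (hb.root hord rfl hfr) hiso hnd
  · exact not_isConj_gl hA hn hσ hD hD (hmem a) (hmem b) (fun c hc => hab.root hord rfl hfr hc)
      (fun c hc => hab.root_inv hord rfl hfr hc) (fun c hc => hab.ne hord rfl hc)

end Model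

end Cfsg.Agent.H410.OZ
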