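import Cfsg.Agent.H410.OZ.Fin

/-!
# S4842: elliptic elements, the numerical conditions (helper410)
-/

set_option autoImplicit false

namespace Cfsg.Agent.H410.OZ

/-- not divisible by size -/
theorem ndvd {N x : ℕ} (h0 : 0 < x) (h : x < N) : ¬ N ∣ x := Nat.not_dvd_of_pos_of_lt h0 h

theorem ndvdZ {N : ℕ} {x : ℤ} (h0 : x ≠ 0) (h1 : x < N) (h2 : -x < N) : ¬ (N : ℤ) ∣ x := by
  intro h
  have h3 := Int.eq_zero_of_abs_lt_dvd h (abs_lt.2 ⟨by omega, h1⟩)
  exact h0 h3

theorem pow_bd3 {q : ℕ} (hq : 5 ≤ q) : 4 * q ^ 2 + 8 < q ^ 3 - 1 ∧ 4 * q + 8 < q ^ 3 - 1 ∧ 13 < q ^ 3 - 1 := by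
  obtain ⟨k, rfl⟩ : ∃ k, q = k + 5 := ⟨q - 5, by omega⟩
  have e : (k + 5) ^ 3 = (k ^ 3 + 15 * k ^ 2 + 75 * k + 124) + 1 := by ring
  rw [e, Nat.add_sub_cancel]
  refine ⟨?_, ?_, ?_⟩ <;> nlinarith [sq_nonneg k, pow_nonneg (Nat.zero_le k) 3]

theorem pow_bd4 {q : ℕ} (hq : 5 ≤ q) : 4 * q ^ 3 + 8 < q ^ 4 - 1 ∧ 4 * q ^ 2 + 8 < q ^ 4 - 1 ∧ 4 * q + 8 < q ^ 4 - 1 ∧
    13 < q ^ 4 - 1 := by
  obtain ⟨k, rfl⟩ : ∃ k, q = k + 5 := ⟨q - 5, by omega⟩
  have e : (k + 5) ^ 4 = (k ^ 4 + 20 * k ^ 3 + 150 * k ^ 2 + 500 * k + 624) + 1 := by ring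
  rw [e, Nat.add_sub_cancel]
  refine ⟨?_, ?_, ?_, ?_⟩ <;> nlinarith [sq_nonneg k, pow_nonneg (Nat.zero_le k) 3, pow_nonneg (Nat.zero_le k) 4]

theorem pow_bd2 {q : ℕ} (hq : 7 ≤ q) : 4 * q + 8 < q ^ 2 - 1 ∧ 13 < q ^ 2 - 1 := by
  obtain ⟨k, rfl⟩ : ∃ k, q = k + 7 := ⟨q - 7, by omega⟩
  have e : (k + 7) ^ 2 = (k ^ 2 + 14 * k + 48) + 1 := by ring
  rw [e, Nat.add_sub_cancel]
  refine ⟨?_, ?_⟩ <;> nlinarith [sq_nonneg k]

theorem good3 {q : ℕ} (hq : 3 ≤ q) {s : ℕ} (hs : s = 1 ∨ s = q + 1) {a : ℕ} (ha : a = 2 ∨ a = 4) :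
    Good (q ^ 3 - 1) q 3 s a := by
  rcases Nat.lt_or_ge q 5 with h5 | h5
  · refine ⟨fun d hd hlt => ?_, fun j hj => ?_, ?_⟩
    · interval_cases d
      · exact absurd hd (by decide)
      · interval_cases q <;> rcases ha with rfl | rfl <;> norm_num
      · exact absurd hd (by decide)
    · interval_cases q <;> rcases ha with rfl | rfl <;> interval_cases j <;> norm_num
    · rcases hs with rfl | rfl <;> interval_cases q <;> rcases ha with rfl | rfl <;> norm_num
  · obtain ⟨h1, h2, h3⟩ := pow_bd3 h5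
    refine ⟨fun d hd hlt => ?_, fun j hj => ?_, ?_⟩
    · interval_cases d
      · exact absurd hd (by decide)
      · rw [pow_one]
        rcases ha with rfl | rfl <;> apply ndvd <;> omega
      · exact absurd hd (by decide)
    · interval_cases j
      · rw [pow_zero]
        rcases ha with rfl | rfl <;> apply ndvd <;> omega
      · rw [pow_one]
        rcases ha with rfl | rfl <;> apply ndvd <;> omega
      · rcases ha with rfl | rfl <;> apply ndvd <;> omega
    · rcases hs with rfl | rfl <;> rcases ha with rfl | rfl <;> apply ndvd <;> omega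

theorem pair3 {q : ℕ} (hq : 3 ≤ q) {s : ℕ} (hs : s = 1 ∨ s = q + 1) : Pair (q ^ 3 - 1) q 3 s 2 4 := by
  rcases Nat.lt_or_ge q 5 with h5 | h5
  · refine ⟨fun j hj => ?_, fun j hj => ?_, ?_⟩
    · interval_cases q <;> interval_cases j <;> norm_num
    · interval_cases q <;> interval_cases j <;> norm_num
    · rcases hs with rfl | rfl
      · right
        interval_cases q <;> norm_num
      · left
        refine ⟨rfl, ?_⟩
        interval_cases q <;> norm_num
  · obtain ⟨h1, h2, h3⟩ := pow_bd3 h5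
    refine ⟨fun j hj => ?_, fun j hj => ?_, ?_⟩
    · interval_cases j
      · rw [pow_zero]
        apply ndvdZ <;> push_cast <;> omega
      · rw [pow_one]
        apply ndvdZ <;> push_cast <;> omega
      · have e : ((q : ℤ) ^ 2) = ((q ^ 2 : ℕ) : ℤ) := by push_cast; ring
        have h4 : 5 * 5 ≤ q * q := Nat.mul_le_mul h5 h5
        have h5' : q ^ 2 = q * q := by ring
        rw [e]
        apply ndvdZ <;> push_cast <;> rw [← Nat.cast_pow] <;> omega
    · interval_cases j
      · rw [pow_zero]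
        apply ndvd <;> omega
      · rw [pow_one]
        apply ndvd <;> omega
      · apply ndvd <;> omega
    · rcases hs with rfl | rfl
      · right
        apply ndvd <;> omega
      · left
        refine ⟨rfl, ?_⟩
        apply ndvd <;> omega

theorem good4 {q : ℕ} (hq : 3 ≤ q) {a : ℕ} (ha : a = 2 ∨ a = 4) : Good (q ^ 4 - 1) q 4 1 a := by
  rcases Nat.lt_or_ge q 5 with h5 | h5
  · refine ⟨fun d hd hlt => ?_, fun j hj => ?_, ?_⟩
    · interval_cases d
      · exact absurd hd (by decide)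
      · interval_cases q <;> rcases ha with rfl | rfl <;> norm_num
      · interval_cases q <;> rcases ha with rfl | rfl <;> norm_num
      · exact absurd hd (by decide)
    · interval_cases q <;> rcases ha with rfl | rfl <;> interval_cases j <;> norm_num
    · interval_cases q <;> rcases ha with rfl | rfl <;> norm_num
  · obtain ⟨h0, h1, h2, h3⟩ := pow_bd4 h5
    have h4 : 5 * 5 ≤ q * q := Nat.mul_le_mul h5 h5
    have h5' : q ^ 2 = q * q := by ring
    refine ⟨fun d hd hlt => ?_, fun j hj => ?_, ?_⟩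
    · interval_cases d
      · exact absurd hd (by decide)
      · rw [pow_one]
        rcases ha with rfl | rfl <;> apply ndvd <;> omega
      · rcases ha with rfl | rfl <;> apply ndvd <;> omega
      · exact absurd hd (by decide)
    · interval_cases j
      · rw [pow_zero]
        rcases ha with rfl | rfl <;> apply ndvd <;> omega
      · rw [pow_one]
        rcases ha with rfl | rfl <;> apply ndvd <;> omega
      · rcases ha with rfl | rfl <;> apply ndvd <;> omega
      · rcases ha with rfl | rfl <;> apply ndvd <;> omega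
    · rcases ha with rfl | rfl <;> apply ndvd <;> omega

theorem pair4 {q : ℕ} (hq : 3 ≤ q) : Pair (q ^ 4 - 1) q 4 1 2 4 := by
  rcases Nat.lt_or_ge q 5 with h5 | h5
  · refine ⟨fun j hj => ?_, fun j hj => ?_, ?_⟩
    · interval_cases q <;> interval_cases j <;> norm_num
    · interval_cases q <;> interval_cases j <;> norm_num
    · right
      interval_cases q <;> norm_num
  · obtain ⟨h0, h1, h2, h3⟩ := pow_bd4 h5
    have h4 : 5 * 5 ≤ q * q := Nat.mul_le_mul h5 h5
    have h5' : q ^ 2 = q * q := by ring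
    have h6 : 5 * (q * q) ≤ q * (q * q) := Nat.mul_le_mul_right _ h5
    have h7 : q ^ 3 = q * (q * q) := by ring
    refine ⟨fun j hj => ?_, fun j hj => ?_, ?_⟩
    · interval_cases j
      · rw [pow_zero]
        apply ndvdZ <;> push_cast <;> omega
      · rw [pow_one]
        apply ndvdZ <;> push_cast <;> omega
      · have e : ((q : ℤ) ^ 2) = ((q ^ 2 : ℕ) : ℤ) := by push_cast; ring
        rw [e]
        apply ndvdZ <;> push_cast <;> rw [← Nat.cast_pow] <;> omega
      · have e : ((q : ℤ) ^ 3) = ((q ^ 3 : ℕ) : ℤ) := by push_cast; ring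
        rw [e]
        apply ndvdZ <;> push_cast <;> rw [← Nat.cast_pow] <;> omega
    · interval_cases j
      · rw [pow_zero]
        apply ndvd <;> omega
      · rw [pow_one]
        apply ndvd <;> omega
      · apply ndvd <;> omega
      · apply ndvd <;> omega
    · right
      apply ndvd <;> omega

theorem good2 {q : ℕ} (hq : 4 ≤ q) {a : ℕ} (ha : a = 1 ∨ a = 2) : Good (q ^ 2 - 1) q 2 (q + 1) a := by
  rcases Nat.lt_or_ge q 7 with h5 | h5
  · refine ⟨fun d hd hlt => ?_, fun j hj => ?_, ?_⟩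
    · interval_cases d
      · exact absurd hd (by decide)
      · interval_cases q <;> rcases ha with rfl | rfl <;> norm_num
    · interval_cases q <;> rcases ha with rfl | rfl <;> interval_cases j <;> norm_num
    · interval_cases q <;> rcases ha with rfl | rfl <;> norm_num
  · obtain ⟨h1, h2⟩ := pow_bd2 h5
    refine ⟨fun d hd hlt => ?_, fun j hj => ?_, ?_⟩
    · interval_cases d
      · exact absurd hd (by decide)
      · rw [pow_one]
        rcases ha with rfl | rfl <;> apply ndvd <;> omega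
    · interval_cases j
      · rw [pow_zero]
        rcases ha with rfl | rfl <;> apply ndvd <;> omega
      · rw [pow_one]
        rcases ha with rfl | rfl <;> apply ndvd <;> omega
    · rcases ha with rfl | rfl <;> apply ndvd <;> omega

theorem pair2 {q : ℕ} (hq : 4 ≤ q) : Pair (q ^ 2 - 1) q 2 (q + 1) 1 2 := by
  rcases Nat.lt_or_ge q 7 with h5 | h5
  · refine ⟨fun j hj => ?_, fun j hj => ?_, ?_⟩
    · interval_cases q <;> interval_cases j <;> norm_num
    · interval_cases q <;> interval_cases j <;> norm_num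
    · left
      refine ⟨rfl, ?_⟩
      interval_cases q <;> norm_num
  · obtain ⟨h1, h2⟩ := pow_bd2 h5
    refine ⟨fun j hj => ?_, fun j hj => ?_, ?_⟩
    · interval_cases j
      · rw [pow_zero]
        apply ndvdZ <;> push_cast <;> omega
      · rw [pow_one]
        apply ndvdZ <;> push_cast <;> omega
    · interval_cases j
      · rw [pow_zero]
        apply ndvd <;> omega
      · rw [pow_one]
        apply ndvd <;> omega
    · left
      refine ⟨rfl, ?_⟩
      apply ndvd <;> omega

theorem good2' {q : ℕ} (hq : 7 ≤ q) {a : ℕ} (ha : a = 2 ∨ a = 4) : Good (q ^ 2 - 1) q 2 (q + 1) a := by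
  obtain ⟨h1, h2⟩ := pow_bd2 hq
  refine ⟨fun d hd hlt => ?_, fun j hj => ?_, ?_⟩
  · interval_cases d
    · exact absurd hd (by decide)
    · rw [pow_one]
      rcases ha with rfl | rfl <;> apply ndvd <;> omega
  · interval_cases j
    · rw [pow_zero]
      rcases ha with rfl | rfl <;> apply ndvd <;> omega
    · rw [pow_one]
      rcases ha with rfl | rfl <;> apply ndvd <;> omega
  · rcases ha with rfl | rfl <;> apply ndvd <;> omega

theorem pair2' {q : ℕ} (hq : 7 ≤ q) : Pair (q ^ 2 - 1) q 2 (q + 1) 2 4 := by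
  obtain ⟨h1, h2⟩ := pow_bd2 hq
  refine ⟨fun j hj => ?_, fun j hj => ?_, ?_⟩
  · interval_cases j
    · rw [pow_zero]
      apply ndvdZ <;> push_cast <;> omega
    · rw [pow_one]
      apply ndvdZ <;> push_cast <;> omega
  · interval_cases j
    · rw [pow_zero]
      apply ndvd <;> omega
    · rw [pow_one]
      apply ndvd <;> omega
  · left
    refine ⟨rfl, ?_⟩
    apply ndvd <;> omega

end Cfsg.Agent.H410.OZ
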