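import Cfsg.Agent.H62.PCWitt
import Cfsg.Agent.H985.VZ.Defs

/-!
# S4842: elliptic elements in the parabolic subgroups of classical groups of type `C_n` (helper410)

`M : Model Fr K` a group modelled on a Witt frame, `i : Fin n` a node, `E = RS Fr (Si i)` the span of
`b (0, true), ..., b (i, true)`, `RS Fr (Ni i)` the opposite subspace, `Mid Fr i` the orthogonal complement of both.

* `mem_LJ_of` : an element of `M.I` which preserves `E` and the opposite subspace lies over `L_J`, `J = {i}ᶜ`;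
* `ell_of`    : the criterion for `Ell {i}ᶜ`.
-/

set_option autoImplicit false
set_option linter.unusedSectionVars false

namespace Cfsg.Agent.H410.OZ

open CoxeterSystem Cfsg.Agent.ChevalleyStructure.CoxeterGeom Cfsg.Agent.Tits.Roots Cfsg.Agent.Nodes.TypeC
open Cfsg.Agent.Nodes Cfsg.Agent.Nodes.Comb Cfsg.Agent.Nodes.Reps Cfsg.Agent.Nodes.WittRoot Cfsg.Agent.Nodes.BNOf
open Cfsg.Agent.Nodes.WittRGD Cfsg.Agent.Nodes.RGDLib Cfsg.Agent.Nodes.WittAll
open Cfsg.Agent.TitsThree Cfsg.Agent.TitsThree.Siegel Cfsg.Agent.TitsThree.WittFrame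
  Cfsg.Agent.TitsThree.WittWeyl Cfsg.Agent.TitsThree.FrameCN
open Cfsg.Agent.Nodes.StabComb Cfsg.Agent.Nodes.Bruhat Cfsg.Agent.Nodes.LeviDec
open Cfsg.Agent.H62.PCFrame Cfsg.Agent.H62.PCWitt Cfsg.Agent.H985.VZ

section Roots

variable {n : ℕ}

/-- the opposite vectors -/
def Ni (i : Fin n) : Set (Fin n × Bool) := {a | a.1 ≤ i ∧ a.2 = false}

theorem isoS_Ni (i : Fin n) : IsoS (Ni i) := by
  rintro a ⟨-, ha⟩ ⟨-, hb⟩
  rw [neg_snd, ha] at hb
  exact absurd hb (by decide)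

theorem sgn_eq_one {i : Fin n} {a : Fin n × Bool} : sgn i a = 1 ↔ a ∈ Si i := by
  unfold sgn Si
  constructor
  · intro h
    split_ifs at h with h1 h2
    · exact ⟨h1, h2⟩
    · omega
  · rintro ⟨h1, h2⟩
    rw [if_pos h1, if_pos h2]

theorem sgn_eq_neg {i : Fin n} {a : Fin n × Bool} : sgn i a = -1 ↔ a ∈ Ni i := by
  unfold sgn Ni
  constructor
  · intro h
    by_cases h1 : a.1 ≤ i
    · by_cases h2 : a.2 = true
      · rw [if_pos h1, if_pos h2] at h
        omega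
      · exact ⟨h1, by simpa using h2⟩
    · rw [if_neg h1] at h
      omega
  · rintro ⟨h1, h2⟩
    rw [if_pos h1, if_neg (by rw [h2]; decide)]

theorem sgn_le (i : Fin n) (a : Fin n × Bool) : sgn i a ≤ 1 := by
  unfold sgn
  split_ifs <;> omega

theorem le_sgn (i : Fin n) (a : Fin n × Bool) : -1 ≤ sgn i a := by
  unfold sgn
  split_ifs <;> omega

theorem neg_mem_Ni {i : Fin n} {a : Fin n × Bool} (h : neg a ∈ Ni i) : sgn i a = 1 := by
  obtain ⟨h1, h2⟩ := h
  rw [neg_fst] at h1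
  rw [neg_snd] at h2
  exact sgn_eq_one.2 ⟨h1, by simpa using h2⟩

end Roots

section Frame

variable {F : Type*} [Field F] {V : Type*} [AddCommGroup V] [Module F V] {H : HForm F V} {n : ℕ}
  (Fr : Frame H (Fin n))

/-- the orthogonal complement of `E` -/
def Pp (i : Fin n) : Submodule F V where
  carrier := {v | ∀ k ≤ i, H.h v (Fr.b (k, true)) = 0}
  zero_mem' := fun _ _ => H.zero_left _
  add_mem' := fun ha hb k hk => by rw [H.add_left, ha k hk, hb k hk, add_zero]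
  smul_mem' := fun c v hv k hk => by rw [H.smul_left, hv k hk, mul_zero]

/-- the orthogonal complement of `E` and the opposite subspace -/
def Mid (i : Fin n) : Submodule F V where
  carrier := {v | ∀ k ≤ i, ∀ s, H.h v (Fr.b (k, s)) = 0}
  zero_mem' := fun _ _ _ => H.zero_left _
  add_mem' := fun ha hb k hk s => by rw [H.add_left, ha k hk, hb k hk, add_zero]
  smul_mem' := fun c v hv k hk s => by rw [H.smul_left, hv k hk, mul_zero]

variable {Fr} {i : Fin n}

theorem mem_Pp {v : V} : v ∈ Pp Fr i ↔ ∀ k ≤ i, H.h v (Fr.b (k, true)) = 0 := Iff.rfl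

theorem mem_Mid {v : V} : v ∈ Mid Fr i ↔ ∀ k ≤ i, ∀ s, H.h v (Fr.b (k, s)) = 0 := Iff.rfl

theorem Mid_le_Pp : Mid Fr i ≤ Pp Fr i := fun _ hv k hk => hv k hk true

theorem h_right_zero {v : V} {S : Set (Fin n × Bool)} (hv : ∀ a ∈ S, H.h v (Fr.b a) = 0) :
    ∀ x ∈ RS Fr S, H.h v x = 0 := by
  intro x hx
  refine Submodule.span_induction (p := fun x _ => H.h v x = 0) ?_ ?_ ?_ ?_ hx
  · rintro _ ⟨a, ha, rfl⟩
    exact hv a ha
  · exact H.zero_right _
  · intro x y _ _ hx hy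
    rw [H.add_right, hx, hy, add_zero]
  · intro c x _ hx
    rw [H.smul_right, hx, mul_zero]

theorem h_left_zero {v : V} {S : Set (Fin n × Bool)} (hv : ∀ a ∈ S, H.h (Fr.b a) v = 0) :
    ∀ x ∈ RS Fr S, H.h x v = 0 := fun x hx =>
  H.orth_symm (h_right_zero (fun a ha => H.orth_symm (hv a ha)) x hx)

theorem b_mem_Pp {a : Fin n × Bool} (ha : 0 ≤ sgn i a) : Fr.b a ∈ Pp Fr i := by
  intro k hk
  apply Fr.hb_ne
  intro e
  have h1 : a ∈ Ni i := by
    have h2 : a = neg (k, true) := by rw [e, neg_neg]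
    rw [h2]
    exact ⟨hk, rfl⟩
  rw [sgn_eq_neg.2 h1] at ha
  omega

theorem Pp_right {v : V} (hv : v ∈ Pp Fr i) {a : Fin n × Bool} (ha : a ∈ Si i) : H.h v (Fr.b a) = 0 := by
  have h1 : a = (a.1, true) := Prod.ext rfl ha.2
  rw [h1]
  exact hv a.1 ha.1

theorem Pp_E {v : V} (hv : v ∈ Pp Fr i) : ∀ x ∈ RS Fr (Si i), H.h v x = 0 :=
  h_right_zero fun _ ha => Pp_right hv ha

theorem Mid_right {v : V} (hv : v ∈ Mid Fr i) {a : Fin n × Bool} (ha : a.1 ≤ i) : H.h v (Fr.b a) = 0 :=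
  hv a.1 ha a.2

theorem Mid_E {v : V} (hv : v ∈ Mid Fr i) : ∀ x ∈ RS Fr (Si i), H.h v x = 0 :=
  h_right_zero fun _ ha => Mid_right hv ha.1

theorem Mid_F {v : V} (hv : v ∈ Mid Fr i) : ∀ x ∈ RS Fr (Ni i), H.h v x = 0 :=
  h_right_zero fun _ ha => Mid_right hv ha.1

theorem E_b {x : V} (hx : x ∈ RS Fr (Si i)) {a : Fin n × Bool} (ha : 0 ≤ sgn i a) : H.h x (Fr.b a) = 0 := by
  refine h_left_zero (fun c hc => Fr.hb_ne fun e => ?_) x hx
  have h1 : a ∈ Ni i := by
    rw [e]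
    refine ⟨hc.1, ?_⟩
    rw [neg_snd, hc.2]
    rfl
  rw [sgn_eq_neg.2 h1] at ha
  omega

theorem E_le_Pp : RS Fr (Si i) ≤ Pp Fr i := fun _ hx k hk =>
  E_b hx (by rw [sgn_eq_one.2 ⟨hk, rfl⟩]; omega)

/-- the group of the unipotent elements -/
def Uni (Fr : Frame H (Fin n)) (i : Fin n) : Subgroup (V ≃ₗ[F] V) where
  carrier := {g | (∀ x ∈ RS Fr (Si i), g x = x) ∧ (∀ v ∈ Pp Fr i, g v - v ∈ RS Fr (Si i)) ∧
    ∀ v, g v - v ∈ Pp Fr i}
  one_mem' := by
    refine ⟨fun _ _ => rfl, fun v _ => ?_, fun v => ?_⟩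
    · change v - v ∈ _
      rw [sub_self]; exact Submodule.zero_mem _
    · change v - v ∈ _
      rw [sub_self]; exact Submodule.zero_mem _
  mul_mem' := by
    rintro g k ⟨h1, h2, h3⟩ ⟨k1, k2, k3⟩
    have e : ∀ v, (g * k) v - v = g (k v - v) + (g v - v) := fun v => by
      change g (k v) - v = _
      rw [map_sub]; abel
    refine ⟨fun x hx => ?_, fun v hv => ?_, fun v => ?_⟩
    · change g (k x) = x
      rw [k1 x hx, h1 x hx]
    · rw [e, h1 _ (k2 v hv)]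
      exact Submodule.add_mem _ (k2 v hv) (h2 v hv)
    · have e' : g (k v - v) = (g (k v - v) - (k v - v)) + (k v - v) := by abel
      rw [e, e']
      exact Submodule.add_mem _ (Submodule.add_mem _ (E_le_Pp (h2 _ (k3 v))) (k3 v)) (h3 v)
  inv_mem' := by
    rintro g ⟨h1, h2, h3⟩
    have h1' : ∀ x ∈ RS Fr (Si i), g⁻¹ x = x := fun x hx => by
      have h4 : g⁻¹ (g x) = x := g.symm_apply_apply x
      rwa [h1 x hx] at h4
    have e : ∀ v, g⁻¹ v - v = -(g (g⁻¹ v) - g⁻¹ v) := fun v => by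
      have : g (g⁻¹ v) = v := g.apply_symm_apply v
      rw [this]; abel
    have h3' : ∀ v, g⁻¹ v - v ∈ Pp Fr i := fun v => by
      rw [e]
      exact Submodule.neg_mem _ (h3 _)
    refine ⟨h1', fun v hv => ?_, h3'⟩
    have hv' : g⁻¹ v ∈ Pp Fr i := by
      have : g⁻¹ v = (g⁻¹ v - v) + v := by abel
      rw [this]
      exact Submodule.add_mem _ (h3' v) hv
    rw [e]
    exact Submodule.neg_mem _ (h2 _ hv')

theorem mem_Uni {g : V ≃ₗ[F] V} : g ∈ Uni Fr i ↔ (∀ x ∈ RS Fr (Si i), g x = x) ∧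
    (∀ v ∈ Pp Fr i, g v - v ∈ RS Fr (Si i)) ∧ ∀ v, g v - v ∈ Pp Fr i := Iff.rfl

theorem V0_Pp {w : V} (hw : w ∈ Fr.V0) : w ∈ Pp Fr i := fun _ _ => Fr.h0' _ hw

theorem PG_le_Uni {a b : Fin n × Bool} (hab : Ok a b) (h0 : 0 < sgn i a + sgn i b) : PG Fr a b ≤ Uni Fr i := by
  have h1 := sgn_le i a
  have h2 := sgn_le i b
  rcases hab with h | rfl
  · rw [PG_ne Fr h]
    rintro _ ⟨t, rfl⟩
    refine ⟨fun x hx => ?_, fun v hv => ?_, fun v => ?_⟩
    · rw [X_apply Fr h, E_b hx (a := a) (by omega), E_b hx (a := b) (by omega)]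
      simp
    · rw [X_apply Fr h]
      have e : ∀ c d : F, v + c • Fr.b b - d • Fr.b a - v = c • Fr.b b - d • Fr.b a := fun c d => by abel
      rw [e]
      refine Submodule.sub_mem _ ?_ ?_
      · by_cases ha : sgn i a = 1
        · rw [Pp_right hv (sgn_eq_one.1 ha), zero_mul, zero_smul]
          exact Submodule.zero_mem _
        · exact Submodule.smul_mem _ _ (b_mem (sgn_eq_one.1 (by omega)))
      · by_cases hb : sgn i b = 1
        · rw [Pp_right hv (sgn_eq_one.1 hb), mul_zero, zero_smul]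
          exact Submodule.zero_mem _
        · exact Submodule.smul_mem _ _ (b_mem (sgn_eq_one.1 (by omega)))
    · rw [X_apply Fr h]
      have e : ∀ c d : F, v + c • Fr.b b - d • Fr.b a - v = c • Fr.b b - d • Fr.b a := fun c d => by abel
      rw [e]
      exact Submodule.sub_mem _ (Submodule.smul_mem _ _ (b_mem_Pp (by omega)))
        (Submodule.smul_mem _ _ (b_mem_Pp (by omega)))
  · rw [PG_self]
    rintro _ ⟨q, rfl⟩
    have ha : a ∈ Si i := sgn_eq_one.1 (by omega)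
    have hw : q.w ∈ Fr.V0 := Fr.ok_mem q.ok
    have e : ∀ (v : V) (c d f : F), v + c • q.w - d • Fr.b a + f • Fr.b a - v = c • q.w + (f - d) • Fr.b a :=
      fun v c d f => by module
    refine ⟨fun x hx => ?_, fun v hv => ?_, fun v => ?_⟩
    · have hxw : H.h x q.w = 0 := h_left_zero (fun c _ => Fr.h0 c _ hw) x hx
      rw [Z_apply, E_b hx (a := a) (by omega), hxw]
      simp
    · rw [Z_apply, e, Pp_right hv ha, zero_smul, zero_add]
      exact Submodule.smul_mem _ _ (b_mem ha)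
    · rw [Z_apply, e]
      exact Submodule.add_mem _ (Submodule.smul_mem _ _ (V0_Pp hw)) (Submodule.smul_mem _ _ (b_mem_Pp (by omega)))

theorem PG_le_StbN [Finite V] {a b : Fin n × Bool} (hab : Ok a b) (h0 : sgn i a + sgn i b ≤ 0) :
    PG Fr a b ≤ Stb (RS Fr (Ni i)) := by
  have key : ∀ c d : Fin n × Bool, sgn i c + sgn i d ≤ 0 → neg c ∈ Ni i → d ∈ Ni i := by
    intro c d hcd hc
    have h1 := neg_mem_Ni hc
    have h2 := le_sgn i d
    exact sgn_eq_neg.1 (by omega)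
  rcases hab with h | rfl
  · rw [PG_ne Fr h]
    rintro _ ⟨t, rfl⟩
    exact X_maps h (key a b h0) (key b a (by omega)) t
  · rw [PG_self]
    rintro _ ⟨q, rfl⟩
    refine Z_maps (fun h1 => ?_) q
    rw [neg_mem_Ni h1] at h0
    omega

/-- the components of a vector -/
theorem exists_decomp (i : Fin n) (v : V) : ∃ x ∈ RS Fr (Si i), ∃ y ∈ RS Fr (Ni i), ∃ w ∈ Mid Fr i, v = x + y + w := by
  classical
  set x : V := ∑ k ∈ Finset.Iic i, (H.h v (Fr.b (k, false))) • Fr.b (k, true) with hx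
  set y : V := ∑ k ∈ Finset.Iic i, (H.ε⁻¹ * H.h v (Fr.b (k, true))) • Fr.b (k, false) with hy
  have hxm : x ∈ RS Fr (Si i) := Submodule.sum_mem _ fun k hk =>
    Submodule.smul_mem _ _ (b_mem ⟨Finset.mem_Iic.1 hk, rfl⟩)
  have hym : y ∈ RS Fr (Ni i) := Submodule.sum_mem _ fun k hk =>
    Submodule.smul_mem _ _ (b_mem ⟨Finset.mem_Iic.1 hk, rfl⟩)
  refine ⟨x, hxm, y, hym, v - x - y, ?_, by abel⟩
  have hsum : ∀ (c : Fin n → F) (s : Bool) (w : V), H.h (∑ k ∈ Finset.Iic i, c k • Fr.b (k, s)) w =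
      ∑ k ∈ Finset.Iic i, c k * H.h (Fr.b (k, s)) w := by
    intro c s w
    induction (Finset.Iic i) using Finset.induction_on with
    | empty => simp [H.zero_left]
    | insert j s' hj ih => rw [Finset.sum_insert hj, Finset.sum_insert hj, H.add_left, H.smul_left, ih]
  intro k hk s
  rw [H.sub_left, H.sub_left, hx, hy, hsum, hsum]
  cases s
  · have h1 : ∀ j ∈ Finset.Iic i, H.ε⁻¹ * H.h v (Fr.b (j, true)) * H.h (Fr.b (j, false)) (Fr.b (k, false)) = 0 := by
      intro j _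
      rw [Fr.hb]; simp
    rw [Finset.sum_eq_zero h1, Finset.sum_eq_single k]
    · rw [Fr.hb]; simp
    · intro j _ hj
      rw [Fr.hb]; simp [hj]
    · intro h; exact absurd (Finset.mem_Iic.2 hk) h
  · have h1 : ∀ j ∈ Finset.Iic i, H.h v (Fr.b (j, false)) * H.h (Fr.b (j, true)) (Fr.b (k, true)) = 0 := by
      intro j _
      rw [Fr.hb]; simp
    rw [Finset.sum_eq_zero h1, Finset.sum_eq_single k]
    · have h3 := H.ε_ne
      rw [Fr.hb]
      simp only [ne_eq, Bool.false_eq_true, not_false_eq_true, and_self, sub_zero, ↓reduceIte]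
      field_simp
      simp
    · intro j _ hj
      rw [Fr.hb]; simp [hj]
    · intro h; exact absurd (Finset.mem_Iic.2 hk) h

theorem eq_zero_of_F_Pp {v : V} (hv : v ∈ RS Fr (Ni i)) (hp : v ∈ Pp Fr i) : v = 0 := by
  by_contra h0
  obtain ⟨a, ha⟩ := Function.ne_iff.1 (psi_ne hv h0)
  have key : ∀ v ∈ RS Fr (Ni i), ∀ a, a ∉ Ni i → psi Fr v a = 0 := by
    intro v hv a ha
    refine Submodule.span_induction (p := fun v _ => psi Fr v a = 0) ?_ ?_ ?_ ?_ hv
    · rintro _ ⟨c, hc, rfl⟩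
      rw [psi_b, Pi.single_eq_of_ne]
      rintro rfl
      exact ha hc
    · simp
    · intro x y _ _ hx hy
      rw [map_add, Pi.add_apply, hx, hy, add_zero]
    · intro c x _ hx
      rw [map_smul, Pi.smul_apply, hx, smul_zero]
  have ha1 : a ∈ Ni i := by
    by_contra h1
    exact ha (key v hv a h1)
  apply ha
  change (H.h (Fr.b a) (Fr.b (neg a)))⁻¹ * H.h v (Fr.b (neg a)) = 0
  have h2 : neg a = (a.1, true) := by
    refine Prod.ext rfl ?_
    rw [neg_snd, ha1.2]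
    rfl
  rw [h2, hp a.1 ha1.1, mul_zero]

theorem eq_zero_of_E_F {x : V} (hx : x ∈ RS Fr (Si i)) (h0 : ∀ k ≤ i, H.h x (Fr.b (k, false)) = 0) : x = 0 := by
  by_contra hx0
  obtain ⟨a, ha⟩ := Function.ne_iff.1 (psi_ne hx hx0)
  have key : ∀ v ∈ RS Fr (Si i), ∀ a, a ∉ Si i → psi Fr v a = 0 := by
    intro v hv a ha
    refine Submodule.span_induction (p := fun v _ => psi Fr v a = 0) ?_ ?_ ?_ ?_ hv
    · rintro _ ⟨c, hc, rfl⟩
      rw [psi_b, Pi.single_eq_of_ne]
      rintro rfl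
      exact ha hc
    · simp
    · intro x y _ _ hx hy
      rw [map_add, Pi.add_apply, hx, hy, add_zero]
    · intro c x _ hx
      rw [map_smul, Pi.smul_apply, hx, smul_zero]
  have ha1 : a ∈ Si i := by
    by_contra h1
    exact ha (key x hx a h1)
  apply ha
  change (H.h (Fr.b a) (Fr.b (neg a)))⁻¹ * H.h x (Fr.b (neg a)) = 0
  have h2 : neg a = (a.1, false) := by
    refine Prod.ext rfl ?_
    rw [neg_snd, ha1.2]
    rfl
  rw [h2, h0 a.1 ha1.1, mul_zero]

/-- a unipotent element which preserves the opposite subspace is trivial -/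
theorem eq_one_of_Uni {u : V ≃ₗ[F] V} (hu : u ∈ Uni Fr i) (hI : H.IsIso u) (hF : ∀ x ∈ RS Fr (Ni i), u x ∈ RS Fr (Ni i)) :
    u = 1 := by
  obtain ⟨h1, h2, h3⟩ := hu
  have hF1 : ∀ x ∈ RS Fr (Ni i), u x = x := fun x hx =>
    sub_eq_zero.1 (eq_zero_of_F_Pp (Submodule.sub_mem _ (hF x hx) hx) (h3 x))
  have hM : ∀ w ∈ Mid Fr i, u w = w := fun w hw => by
    refine sub_eq_zero.1 (eq_zero_of_E_F (h2 w (Mid_le_Pp hw)) fun k hk => ?_)
    have e : H.h (u w) (Fr.b (k, false)) = H.h w (Fr.b (k, false)) := by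
      conv_lhs => rw [← hF1 (Fr.b (k, false)) (b_mem ⟨hk, rfl⟩)]
      exact hI _ _
    rw [H.sub_left, e, sub_self]
  ext v
  obtain ⟨x, hx, y, hy, w, hw, rfl⟩ := exists_decomp (Fr := Fr) i v
  change u (x + y + w) = x + y + w
  rw [map_add, map_add, h1 x hx, hF1 y hy, hM w hw]

end Frame

section Model

variable {F : Type*} [Field F] {V : Type*} [AddCommGroup V] [Module F V] {H : HForm F V} {n : ℕ}
  {Fr : Frame H (Fin n)} {K : Type*} [Group K] (M : Model Fr K)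
  {W : Type*} [Group W] (cs : CoxeterSystem (CoxeterMatrix.B n) W)

/-- the elements of the kernel preserve all subspaces -/
theorem ker_maps {g : M.I} (hg : M.φ g = 1) (U : Submodule F V) {v : V} (hv : v ∈ U) : g.1 v ∈ U := by
  obtain ⟨a, ha⟩ := M.ker v g hg
  rw [ha]
  exact Submodule.smul_mem _ _ hv

/-- an element of the kernel with a fixed vector is trivial -/
theorem ker_eq_one {g : M.I} (hg : M.φ g = 1) {x : V} (hx0 : x ≠ 0) (hx : g.1 x = x) : g.1 = 1 := by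
  ext v
  change g.1 v = v
  obtain ⟨a, ha⟩ := M.ker v g hg
  by_cases hv : ∃ c : F, v = c • x
  · obtain ⟨c, rfl⟩ := hv
    rw [map_smul, hx]
  · obtain ⟨b, hb⟩ := M.ker (v + x) g hg
    rw [map_add, hx, ha, smul_add] at hb
    have h1 : (a - b) • v = (b - 1) • x := by
      rw [sub_smul, sub_smul, one_smul]
      have := sub_eq_zero.2 hb
      rw [← sub_eq_zero, ← this]
      abel
    by_cases hab : a = b
    · subst hab
      rw [sub_self, zero_smul] at h1
      have h2 : a - 1 = 0 := (smul_eq_zero.1 h1.symm).resolve_right hx0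
      rw [ha, sub_eq_zero.1 h2, one_smul]
    · exfalso
      apply hv
      refine ⟨(a - b)⁻¹ * (b - 1), ?_⟩
      rw [mul_smul, ← h1, smul_smul, inv_mul_cancel₀ (sub_ne_zero.2 hab), one_smul]

theorem VJ_le (i : Fin n) : VJ cs (isCartan n) (WittModel.X M) {i}ᶜ ≤ ((Uni Fr i).subgroupOf M.I).map M.φ := by
  refine RGD.Sup_le fun x hx => ?_
  obtain ⟨h1, h2, k, hk, hk0⟩ := hx
  obtain ⟨a, b, hab, e⟩ := exists_of_isRoot cs h1
  have hki : k = i := by simpa using hk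
  subst hki
  unfold WittModel.X
  rw [rg_eq Fr hab e]
  refine Subgroup.map_mono (Subgroup.comap_mono (PG_le_Uni hab ?_))
  rw [← coeff e]
  split_ifs <;> omega

variable [Finite V]

theorem LJ_le (i : Fin n) : LJ cs (isCartan n) (WittModel.T M) (WittModel.X M) {i}ᶜ ≤
    ((Stb (RS Fr (Si i)) ⊓ Stb (RS Fr (Ni i))).subgroupOf M.I).map M.φ := by
  refine sup_le ?_ (RGD.Sup_le fun x hx => ?_)
  · refine Subgroup.map_mono (Subgroup.comap_mono ?_)
    intro t ht
    exact ⟨mono_maps ht.2, mono_maps ht.2⟩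
  · obtain ⟨a, b, hab, e⟩ := exists_of_isRoot cs hx.1
    unfold WittModel.X
    rw [rg_eq Fr hab e]
    have h0 : x i = 0 := hx.2 i (by simp)
    have h1 := coeff e i
    rw [h0, mul_zero] at h1
    exact Subgroup.map_mono (Subgroup.comap_mono (le_inf (PG_le hab e h0.ge) (PG_le_StbN hab (by omega))))

variable {M} {cs} {p : ℕ} [Fact p.Prime] [CharP F p] (hA : AmbT Fr p M.I) {p0 : Fr.Adm} (hp0 : p0.c ≠ 0)
  (hn : 0 < n)

include hA hp0 hn

/-- the parabolic subgroup is the stabiliser -/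
theorem PJ_eq (i : Fin n) : ((Stb (RS Fr (Si i))).subgroupOf M.I).map M.φ =
    PJ cs (isCartan n) (WittModel.T M) (WittModel.X M) {i}ᶜ := by
  have : Finite W := finite_W cs
  have R := rgdC_model M hA hp0 cs
  have hG1 := WittModel.G1_eq_top M hn cs
  have hGG : GG cs (isCartan n) (WittModel.T M) (WittModel.X M) = ⊤ := by
    rw [eq_top_iff, ← hG1]
    exact le_sup_right
  have h1 := PJ_le M cs i
  have h2 := H554.RG.eq_PJ R hGG (B_le_PJ.trans h1)
  apply le_antisymm ?_ h1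
  rw [h2]
  refine H554.RG.PJ_mono R fun j hj => ?_
  rw [Set.mem_compl_singleton_iff]
  rintro rfl
  obtain ⟨g, hg, e⟩ := hj
  have hg' : ∀ v ∈ RS Fr (Si j), g.1 v ∈ RS Fr (Si j) := Subgroup.mem_subgroupOf.1 hg
  set k : M.I := ⟨nn Fr p0 j, WittAll.nn_mem hA p0 j⟩ with hk
  have hz : M.φ (g⁻¹ * k) = 1 := by
    rw [map_mul, map_inv, e]
    exact inv_mul_cancel _
  obtain ⟨a, ha⟩ := M.ker (Fr.b (j, true)) _ hz
  have h3 : nn Fr p0 j (Fr.b (j, true)) ∈ RS Fr (Si j) := by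
    have h4 : nn Fr p0 j (Fr.b (j, true)) = g.1 ((g⁻¹ * k : M.I).1 (Fr.b (j, true))) := by
      change nn Fr p0 j (Fr.b (j, true)) = g.1 (g.1⁻¹ (nn Fr p0 j (Fr.b (j, true))))
      exact (g.1.apply_symm_apply _).symm
    rw [h4, ha, map_smul]
    exact Submodule.smul_mem _ _ (hg' _ (b_mem ⟨le_rfl, rfl⟩))
  obtain ⟨l, hl, e2⟩ := mono_nn hp0 j (j, true)
  rw [e2] at h3
  have h5 : Fr.b (sg j (j, true)) ∈ RS Fr (Si j) := by
    have := Submodule.smul_mem _ l⁻¹ h3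
    rwa [smul_smul, inv_mul_cancel₀ hl, one_smul] at this
  have h6 : sg j (j, true) ∉ Si j := by
    by_cases hi : (j : ℕ) + 1 < n
    · rw [sg_up hi]
      rintro ⟨h7, -⟩
      exact absurd (Fin.le_def.1 h7) (by simp)
    · rw [sg_last hi]
      rintro ⟨-, h7⟩
      exact absurd h7 (by simp)
  -- the vector `b (sg j (j, true))` is not in the span
  have key : ∀ v ∈ RS Fr (Si j), ∀ a, a ∉ Si j → psi Fr v a = 0 := by
    intro v hv a ha
    refine Submodule.span_induction (p := fun v _ => psi Fr v a = 0) ?_ ?_ ?_ ?_ hv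
    · rintro _ ⟨c, hc, rfl⟩
      rw [psi_b, Pi.single_eq_of_ne]
      rintro rfl
      exact ha hc
    · simp
    · intro x y _ _ hx hy
      rw [map_add, Pi.add_apply, hx, hy, add_zero]
    · intro c x _ hx
      rw [map_smul, Pi.smul_apply, hx, smul_zero]
  have h7 := key _ h5 _ h6
  rw [psi_b, Pi.single_eq_same] at h7
  exact one_ne_zero h7

/-- the elements preserving `E` and the opposite subspace lie in the Levi subgroup -/
theorem mem_LJ_of {i : Fin n} {g : M.I} (hE : ∀ x ∈ RS Fr (Si i), g.1 x ∈ RS Fr (Si i))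
    (hF : ∀ x ∈ RS Fr (Ni i), g.1 x ∈ RS Fr (Ni i)) :
    M.φ g ∈ LJ cs (isCartan n) (WittModel.T M) (WittModel.X M) {i}ᶜ := by
  have : Finite W := finite_W cs
  have R := rgdC_model M hA hp0 cs
  have h1 : M.φ g ∈ PJ cs (isCartan n) (WittModel.T M) (WittModel.X M) {i}ᶜ := by
    rw [← PJ_eq hA hp0 hn i]
    exact ⟨g, Subgroup.mem_subgroupOf.2 hE, rfl⟩
  obtain ⟨l, hl, v, hv, e⟩ := (mem_PJ R).1 h1
  obtain ⟨l', hl', rfl⟩ := LJ_le M cs i hl
  obtain ⟨v', hv', rfl⟩ := VJ_le M cs i hv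
  have hl1 := Subgroup.mem_inf.1 (Subgroup.mem_subgroupOf.1 hl')
  have hv1 : v'.1 ∈ Uni Fr i := Subgroup.mem_subgroupOf.1 hv'
  have hz : M.φ (g⁻¹ * (l' * v')) = 1 := by rw [map_mul, map_inv, map_mul, e, inv_mul_cancel]
  have h2 : v'.1 = 1 := by
    refine eq_one_of_Uni hv1 (hA.iso _ v'.2) fun x hx => ?_
    have h3 : v'.1 x = l'.1⁻¹ (g.1 ((g⁻¹ * (l' * v') : M.I).1 x)) := by
      change v'.1 x = l'.1⁻¹ (g.1 (g.1⁻¹ (l'.1 (v'.1 x))))
      rw [show g.1 (g.1⁻¹ (l'.1 (v'.1 x))) = l'.1 (v'.1 x) from g.1.apply_symm_apply _]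
      exact (l'.1.symm_apply_apply _).symm
    rw [h3]
    exact (inv_mem hl1.2 : l'.1⁻¹ ∈ Stb (RS Fr (Ni i))) _ (hF _ (ker_maps M hz _ hx))
  have h3 : v' = 1 := Subtype.ext h2
  rw [h3, map_one, mul_one] at e
  rw [e]
  exact hl

/-- **the criterion for elliptic elements** -/
theorem ell_of {i : Fin n} {t : M.I} (hE : ∀ x ∈ RS Fr (Si i), t.1 x ∈ RS Fr (Si i))
    (hF : ∀ x ∈ RS Fr (Ni i), t.1 x ∈ RS Fr (Ni i))
    (hirr : ∀ U : Submodule F V, U ≤ RS Fr (Si i) → U ≠ ⊥ → (∀ x ∈ U, t.1 x ∈ U) → U = RS Fr (Si i))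
    (hM : ∀ f : V →ₗ[F] V, (∀ v ∈ Mid Fr i, f v ∈ RS Fr (Si i)) → (∀ v ∈ Mid Fr i, f (t.1 v) = t.1 (f v)) →
      ∀ v ∈ Mid Fr i, f v = 0)
    (hFE : ∀ f : V →ₗ[F] V, (∀ v ∈ RS Fr (Ni i), f v ∈ RS Fr (Si i)) →
      (∀ v ∈ RS Fr (Ni i), f (t.1 v) = t.1 (f v)) → ∀ v ∈ RS Fr (Ni i), f v = 0)
    (hiso : ∀ U : Submodule F V, U ≤ Mid Fr i → (∀ x ∈ U, ∀ y ∈ U, H.h x y = 0) → (∀ x ∈ U, t.1 x ∈ U) → U = ⊥)
    (hnd : ∀ v ∈ Mid Fr i, (∀ w ∈ Mid Fr i, H.h v w = 0) → v = 0) :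
    Ell cs (isCartan n) (WittModel.T M) (WittModel.X M) {i}ᶜ (M.φ t) := by
  have : Finite W := finite_W cs
  have R := rgdC_model M hA hp0 cs
  have hb0 : Fr.b (i, true) ≠ 0 := b_ne_zero _
  have hbE : Fr.b (i, true) ∈ RS Fr (Si i) := b_mem ⟨le_rfl, rfl⟩
  have hEi : ∀ x ∈ RS Fr (Si i), t.1⁻¹ x ∈ RS Fr (Si i) :=
    (inv_mem (show t.1 ∈ Stb (RS Fr (Si i)) from hE) : t.1⁻¹ ∈ Stb (RS Fr (Si i)))
  refine ⟨⟨mem_LJ_of hA hp0 hn hE hF, fun u hu hcomm => ?_⟩, fun J hJ l hl hP => ?_⟩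
  · obtain ⟨u, hu', rfl⟩ := VJ_le M cs i hu
    obtain ⟨h1, h2, h3⟩ : u.1 ∈ Uni Fr i := Subgroup.mem_subgroupOf.1 hu'
    -- the commutator is a scalar with a fixed vector
    have hz : M.φ (t * u * (u * t)⁻¹) = 1 := by
      rw [map_mul, map_mul, map_inv, map_mul, hcomm, mul_inv_cancel]
    have hc : (t * u * (u * t)⁻¹ : M.I).1 = 1 := by
      refine ker_eq_one M hz hb0 ?_
      change t.1 (u.1 ((u.1 * t.1)⁻¹ (Fr.b (i, true)))) = _
      have e1 : (u.1 * t.1)⁻¹ (Fr.b (i, true)) = t.1⁻¹ (Fr.b (i, true)) := by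
        apply (u.1 * t.1).injective
        rw [show (u.1 * t.1) ((u.1 * t.1)⁻¹ (Fr.b (i, true))) = Fr.b (i, true) from
          (u.1 * t.1).apply_symm_apply _]
        change _ = u.1 (t.1 (t.1⁻¹ (Fr.b (i, true))))
        rw [show t.1 (t.1⁻¹ (Fr.b (i, true))) = Fr.b (i, true) from t.1.apply_symm_apply _, h1 _ hbE]
      rw [e1, h1 _ (hEi _ hbE)]
      exact t.1.apply_symm_apply _
    have hc2 : t.1 * u.1 = u.1 * t.1 := by
      have : t * u * (u * t)⁻¹ = 1 := Subtype.ext hc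
      exact congrArg Subtype.val (mul_inv_eq_one.1 this)
    have hcv : ∀ v, t.1 (u.1 v) = u.1 (t.1 v) := fun v => LinearEquiv.congr_fun hc2 v
    set f : V →ₗ[F] V := (u.1 : V →ₗ[F] V) - LinearMap.id with hf
    have hfa : ∀ v, f v = u.1 v - v := fun v => rfl
    have hft : ∀ v, f (t.1 v) = t.1 (f v) := fun v => by rw [hfa, hfa, map_sub, hcv]
    have hmid : ∀ v ∈ Mid Fr i, u.1 v = v := fun v hv => by
      have := hM f (fun v hv => by rw [hfa]; exact h2 v (Mid_le_Pp hv)) (fun v _ => hft v) v hv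
      rw [hfa] at this
      exact sub_eq_zero.1 this
    have hFm : ∀ v ∈ RS Fr (Ni i), f v ∈ RS Fr (Si i) := fun v hv => by
      obtain ⟨x, hx, y, hy, w, hw, e⟩ := exists_decomp (Fr := Fr) i (f v)
      have hfP : f v ∈ Pp Fr i := by rw [hfa]; exact h3 v
      have hy0 : y = 0 := by
        apply eq_zero_of_F_Pp hy
        have e2 : y = f v - x - w := by rw [e]; abel
        rw [e2]
        exact Submodule.sub_mem _ (Submodule.sub_mem _ hfP (E_le_Pp hx)) (Mid_le_Pp hw)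
      have hw0 : w = 0 := by
        apply hnd w hw
        intro w' hw'
        have e2 : w = f v - x := by rw [e, hy0]; abel
        have e3 : H.h (u.1 v) w' = H.h v w' := by
          conv_lhs => rw [← hmid w' hw']
          exact hA.iso _ u.2 _ _
        have e4 : H.h x w' = 0 := H.orth_symm (Mid_E hw' x hx)
        rw [e2, H.sub_left, hfa, H.sub_left, e3, sub_self, e4, sub_zero]
      rw [e, hy0, hw0, add_zero, add_zero]
      exact hx
    have hF1 : ∀ v ∈ RS Fr (Ni i), u.1 v = v := fun v hv => by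
      have := hFE f hFm (fun v _ => hft v) v hv
      rw [hfa] at this
      exact sub_eq_zero.1 this
    have hu1 : u.1 = 1 := by
      ext v
      obtain ⟨x, hx, y, hy, w, hw, rfl⟩ := exists_decomp (Fr := Fr) i v
      change u.1 (x + y + w) = x + y + w
      rw [map_add, map_add, h1 x hx, hF1 y hy, hmid w hw]
    have hu2 : u = 1 := Subtype.ext hu1
    rw [hu2, map_one]
  · obtain ⟨l, hl', rfl⟩ := LJ_le M cs i hl
    have hl1 := Subgroup.mem_inf.1 (Subgroup.mem_subgroupOf.1 hl')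
    obtain ⟨j, hj, hjJ⟩ := Set.exists_of_ssubset hJ
    rw [Set.mem_compl_singleton_iff] at hj
    have h1 : M.φ (l * t * l⁻¹) ∈ ((Stb (RS Fr (Si j))).subgroupOf M.I).map M.φ := by
      rw [map_mul, map_mul, map_inv, PJ_eq hA hp0 hn (cs := cs) j]
      refine H554.RG.PJ_mono R (fun k hk => ?_) hP
      rw [Set.mem_compl_singleton_iff]
      rintro rfl
      exact hjJ hk
    obtain ⟨g, hg, e⟩ := h1
    have hg' : ∀ v ∈ RS Fr (Si j), g.1 v ∈ RS Fr (Si j) := Subgroup.mem_subgroupOf.1 hg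
    have hz : M.φ (g⁻¹ * (l * t * l⁻¹)) = 1 := by rw [map_mul, map_inv, e, inv_mul_cancel]
    have h2 : ∀ v ∈ RS Fr (Si j), (l * t * l⁻¹ : M.I).1 v ∈ RS Fr (Si j) := fun v hv => by
      have h3 : (l * t * l⁻¹ : M.I).1 v = g.1 ((g⁻¹ * (l * t * l⁻¹) : M.I).1 v) := by
        change _ = g.1 (g.1⁻¹ ((l * t * l⁻¹ : M.I).1 v))
        exact (g.1.apply_symm_apply _).symm
      rw [h3]
      exact hg' _ (ker_maps M hz _ hv)
    -- the invariant subspace
    set U : Submodule F V := (RS Fr (Si j)).comap (l.1 : V →ₗ[F] V) with hU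
    have hUt : ∀ x ∈ U, t.1 x ∈ U := fun x hx => by
      change l.1 (t.1 x) ∈ RS Fr (Si j)
      have h3 := h2 (l.1 x) hx
      have h4 : (l * t * l⁻¹ : M.I).1 (l.1 x) = l.1 (t.1 x) := by
        change l.1 (t.1 (l.1⁻¹ (l.1 x))) = _
        rw [show l.1⁻¹ (l.1 x) = x from l.1.symm_apply_apply x]
      rwa [h4] at h3
    have hli : ∀ v, l.1 (l.1⁻¹ v) = v := fun v => l.1.apply_symm_apply v
    have hli' : ∀ v, l.1⁻¹ (l.1 v) = v := fun v => l.1.symm_apply_apply v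
    rcases lt_or_gt_of_ne hj with hlt | hgt
    · -- a subspace of `E`
      have hsub : RS Fr (Si j) ≤ RS Fr (Si i) :=
        Submodule.span_mono (Set.image_mono fun a ha => ⟨ha.1.trans hlt.le, ha.2⟩)
      have hUE : U ≤ RS Fr (Si i) := fun x hx => by
        have h3 : l.1⁻¹ (l.1 x) ∈ RS Fr (Si i) := (inv_mem hl1.1 : l.1⁻¹ ∈ Stb _) _ (hsub hx)
        rwa [hli'] at h3
      have hU0 : U ≠ ⊥ := by
        intro h0
        have h3 : l.1⁻¹ (Fr.b (j, true)) ∈ U := by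
          change l.1 (l.1⁻¹ (Fr.b (j, true))) ∈ RS Fr (Si j)
          rw [hli]
          exact b_mem ⟨le_rfl, rfl⟩
        rw [h0, Submodule.mem_bot] at h3
        have h4 := congrArg l.1 h3
        rw [hli, map_zero] at h4
        exact b_ne_zero _ h4
      have hUE' := hirr U hUE hU0 hUt
      have h5 : Fr.b (i, true) ∈ RS Fr (Si j) := by
        have h6 : l.1⁻¹ (Fr.b (i, true)) ∈ RS Fr (Si i) := (inv_mem hl1.1 : l.1⁻¹ ∈ Stb _) _ hbE
        rw [← hUE'] at h6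
        change l.1 (l.1⁻¹ (Fr.b (i, true))) ∈ RS Fr (Si j) at h6
        rwa [hli] at h6
      have key : ∀ v ∈ RS Fr (Si j), psi Fr v (i, true) = 0 := by
        intro v hv
        refine Submodule.span_induction (p := fun v _ => psi Fr v (i, true) = 0) ?_ ?_ ?_ ?_ hv
        · rintro _ ⟨c, hc, rfl⟩
          rw [psi_b, Pi.single_eq_of_ne]
          rintro rfl
          exact absurd hc.1 (not_le.2 hlt)
        · simp
        · intro x y _ _ hx hy
          rw [map_add, Pi.add_apply, hx, hy, add_zero]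
        · intro c x _ hx
          rw [map_smul, Pi.smul_apply, hx, smul_zero]
      have h6 := key _ h5
      rw [psi_b, Pi.single_eq_same] at h6
      exact one_ne_zero h6
    · -- a subspace of the complement
      have hlM : ∀ v ∈ Mid Fr i, ∀ g : M.I, g.1 ∈ Stb (RS Fr (Si i)) → g.1 ∈ Stb (RS Fr (Ni i)) → g.1 v ∈ Mid Fr i := by
        intro v hv g hgE hgF k hk s
        have e5 : H.h (g.1 v) (Fr.b (k, s)) = H.h v (g.1⁻¹ (Fr.b (k, s))) := by
          have := hA.iso _ g.2 v (g.1⁻¹ (Fr.b (k, s)))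
          rwa [show g.1 (g.1⁻¹ (Fr.b (k, s))) = Fr.b (k, s) from g.1.apply_symm_apply _] at this
        rw [e5]
        cases s
        · exact Mid_F hv _ ((inv_mem hgF : g.1⁻¹ ∈ Stb _) _ (b_mem ⟨hk, rfl⟩))
        · exact Mid_E hv _ ((inv_mem hgE : g.1⁻¹ ∈ Stb _) _ (b_mem ⟨hk, rfl⟩))
      have hbM : Fr.b (j, true) ∈ Mid Fr i := fun k hk s => Fr.hb_ne fun h => by
        have h3 := congrArg Prod.fst h
        rw [neg_fst] at h3
        change k = j at h3
        subst h3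
        exact absurd hk (not_le.2 hgt)
      have hxM : l.1⁻¹ (Fr.b (j, true)) ∈ Mid Fr i :=
        hlM _ hbM l⁻¹ (inv_mem hl1.1) (inv_mem hl1.2)
      have hxU : l.1⁻¹ (Fr.b (j, true)) ∈ U ⊓ Mid Fr i := by
        refine ⟨?_, hxM⟩
        change l.1 (l.1⁻¹ (Fr.b (j, true))) ∈ RS Fr (Si j)
        rw [hli]
        exact b_mem ⟨le_rfl, rfl⟩
      have h0 := hiso (U ⊓ Mid Fr i) inf_le_right (fun x hx y hy => by
        rw [← hA.iso _ l.2 x y]
        exact isotropic (isoS_Si j) _ hx.1 _ hy.1) (fun x hx => ⟨hUt x hx.1, hlM x hx.2 t hE hF⟩)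
      rw [h0, Submodule.mem_bot] at hxU
      have h4 := congrArg l.1 hxU
      rw [hli, map_zero] at h4
      exact b_ne_zero _ h4

end Model

end Cfsg.Agent.H410.OZ
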