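import Mathlib

/-!
# S4842: a matrix of order `q + 1` of `SL₂(q)` without eigenvectors (helper410)
-/

set_option autoImplicit false
set_option linter.unusedSectionVars false

namespace Cfsg.Agent.H410.OZ

open Matrix Module
open scoped MatrixGroups

variable {F : Type*} [Field F]

/-- no eigenvectors -/
def Anis (C : Matrix (Fin 2) (Fin 2) F) : Prop :=
  ∀ X Z : F, C 1 0 * X ^ 2 + (C 0 0 - C 1 1) * X * Z - C 0 1 * Z ^ 2 = 0 → X = 0 ∧ Z = 0

theorem anis_of {C : Matrix (Fin 2) (Fin 2) F} (h : ∀ l : F, (C 0 0 - l) * (C 1 1 - l) - C 0 1 * C 1 0 ≠ 0) :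
    Anis C := by
  intro X Z h0
  by_cases hX : X = 0
  · refine ⟨hX, ?_⟩
    by_contra hZ
    rw [hX] at h0
    have h1 : C 0 1 = 0 := by
      have : C 0 1 * Z ^ 2 = 0 := by linear_combination -h0
      exact (mul_eq_zero.1 this).resolve_right (pow_ne_zero 2 hZ)
    exact h (C 1 1) (by rw [h1, sub_self, mul_zero, zero_mul, sub_zero])
  · exfalso
    apply h ((C 0 0 * X - C 0 1 * Z) / X)
    field_simp
    linear_combination (-C 0 1) * h0

theorem exists_C (F : Type*) [Field F] [Finite F] {p : ℕ} [Fact p.Prime] [CharP F p] :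
    ∃ C : SL(2, F), C ^ (Nat.card F + 1) = 1 ∧ Anis C.1 ∧
      (Odd (Nat.card F) → ∃ B : Matrix (Fin 2) (Fin 2) F, B.det ≠ 0 ∧ C.1 = B * B) := by
  have : Fintype F := Fintype.ofFinite F
  set q := Nat.card F with hq
  have hq2 : 1 < q := Finite.one_lt_card
  let L := FiniteField.Extension F p 2
  have hfr : finrank F L = 2 := FiniteField.finrank_extension F p 2
  have : FiniteDimensional F L := Module.Finite.of_finite
  let b : Basis (Fin 2) F L := finBasisOfFinrankEq F L hfr
  let φ := Algebra.leftMulMatrix b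
  have hcL : Nat.card Lˣ = (q - 1) * (q + 1) := by
    have h1 : Nat.card L = Nat.card F ^ 2 := FiniteField.natCard_extension F p 2
    rw [Nat.card_units, h1, ← hq]
    obtain ⟨k, hk⟩ : ∃ k, q = k + 1 := ⟨q - 1, by omega⟩
    rw [hk, Nat.add_sub_cancel]
    have : (k + 1) ^ 2 = k * (k + 1 + 1) + 1 := by ring
    rw [this, Nat.add_sub_cancel]
  obtain ⟨γ, hγ⟩ := IsCyclic.exists_generator (α := Lˣ)
  have hord : orderOf γ = (q - 1) * (q + 1) := by rw [orderOf_eq_card_of_forall_mem_zpowers hγ, hcL]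
  have hdet : ∀ x : L, x ≠ 0 → (φ x).det ≠ 0 := by
    intro x hx h0
    have h1 : φ x * φ x⁻¹ = 1 := by rw [← map_mul, mul_inv_cancel₀ hx, map_one]
    have h2 := congrArg Matrix.det h1
    rw [Matrix.det_mul, h0, zero_mul, Matrix.det_one] at h2
    exact zero_ne_one h2
  have hA : (φ (γ : L)).det ≠ 0 := hdet _ γ.ne_zero
  have hC : (φ ((γ : L) ^ (q - 1))).det = 1 := by
    rw [map_pow, Matrix.det_pow, hq, Nat.card_eq_fintype_card]
    exact FiniteField.pow_card_sub_one_eq_one _ hA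
  let C : SL(2, F) := ⟨φ ((γ : L) ^ (q - 1)), hC⟩
  refine ⟨C, ?_, ?_, ?_⟩
  · apply Subtype.ext
    rw [Matrix.SpecialLinearGroup.coe_pow C (q + 1)]
    change (φ ((γ : L) ^ (q - 1))) ^ (q + 1) = 1
    rw [← map_pow, ← pow_mul, ← hord, ← Units.val_pow_eq_pow_val, pow_orderOf_eq_one, Units.val_one, map_one]
  · apply anis_of
    intro l hl
    have h1 : (γ : L) ^ (q - 1) - algebraMap F L l ≠ 0 := by
      intro h2
      rw [sub_eq_zero] at h2
      have hl0 : l ≠ 0 := by
        rintro rfl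
        rw [map_zero] at h2
        exact pow_ne_zero _ γ.ne_zero h2
      have h3 : ((γ : L) ^ (q - 1)) ^ (q - 1) = 1 := by
        rw [h2, ← map_pow, hq, Nat.card_eq_fintype_card, FiniteField.pow_card_sub_one_eq_one _ hl0, map_one]
      rw [← pow_mul, ← Units.val_pow_eq_pow_val, Units.val_eq_one, ← orderOf_dvd_iff_pow_eq_one, hord] at h3
      have h4 := Nat.le_of_dvd (Nat.mul_pos (by omega) (by omega)) h3
      have h5 : q + 1 ≤ q - 1 := Nat.le_of_mul_le_mul_left h4 (by omega)
      omega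
    apply hdet _ h1
    rw [map_sub, AlgHom.commutes, Matrix.det_fin_two]
    simp only [Matrix.sub_apply, Matrix.algebraMap_matrix_apply]
    simp only [Algebra.algebraMap_self, RingHom.id_apply, if_true]
    have e1 : (if (0 : Fin 2) = 1 then l else 0) = 0 := if_neg (by decide)
    have e2 : (if (1 : Fin 2) = 0 then l else 0) = 0 := if_neg (by decide)
    rw [e1, e2, sub_zero, sub_zero]
    exact hl
  · intro hodd
    obtain ⟨k, hk⟩ := hodd
    refine ⟨φ ((γ : L) ^ k), hdet _ (pow_ne_zero _ γ.ne_zero), ?_⟩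
    change φ ((γ : L) ^ (q - 1)) = _
    rw [← map_mul, ← pow_add]
    congr 2
    omega

end Cfsg.Agent.H410.OZ
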