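import Cfsg.Agent.H410.OZ.SpE
import Cfsg.Agent.TitsThree.KSideO

/-!
# S4842: elliptic elements of `POmega_{2m+1}(q)`, `m = 3, 4`, `q` odd (helper410)

`J = {i}ᶜ`, `i = m - 1` (torus `q ^ m - 1` of `GL_m`), `i = m - 2` (torus `(q ^ (m - 1) - 1) (q + 1)`).
`adE j C` : the action of `GL₂(F)` on the matrices of trace zero, as isometries of `<e_j, f_j, w>`.
-/

set_option autoImplicit false
set_option linter.unusedSectionVars false

namespace Cfsg.Agent.H410.OZ

open CoxeterSystem Cfsg.Agent.ChevalleyStructure.CoxeterGeom Cfsg.Agent.Tits.Roots Cfsg.Agent.Nodes.TypeC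
open Cfsg.Agent.Nodes Cfsg.Agent.Nodes.Comb Cfsg.Agent.Nodes.Reps Cfsg.Agent.Nodes.WittRoot Cfsg.Agent.Nodes.BNOf
open Cfsg.Agent.Nodes.WittRGD Cfsg.Agent.Nodes.RGDLib Cfsg.Agent.Nodes.WittAll
open Cfsg.Agent.TitsThree Cfsg.Agent.TitsThree.Siegel Cfsg.Agent.TitsThree.WittFrame
  Cfsg.Agent.TitsThree.WittWeyl Cfsg.Agent.TitsThree.FrameCN
open Cfsg.Agent.Nodes.StabComb Cfsg.Agent.Nodes.Bruhat Cfsg.Agent.Nodes.LeviDec
open Cfsg.Agent.H62.PCFrame Cfsg.Agent.H62.PCWitt Cfsg.Agent.H985.VZ Module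
open QuadraticMap Cfsg.Agent.LieClassical Cfsg.Agent.LieClassical.OrthCore Cfsg.Agent.LieClassical.OrthForms
open Cfsg.Agent.TitsThree.KSideO Cfsg.Agent.TitsThree.WBridge Cfsg.Agent.Nodes.WittU Cfsg.Agent.Nodes.WittInst
open scoped MatrixGroups

/-- squares of isometries -/
theorem sq_mem_EQ {F V : Type*} [Field F] [AddCommGroup V] [Module F V] [FiniteDimensional F V]
    {Q : QuadraticForm F V} (hG : LieClassical.OrthTrans.Good Q) {g : V ≃ₗ[F] V} (hg : g ∈ O Q) : g * g ∈ E Q := by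
  rw [O_eq_closure hG.nondeg] at hg
  induction hg using Subgroup.closure_induction with
  | mem x hx =>
    rcases hx with ⟨u, hu, rfl⟩ | hx
    · rw [OrthCore.refl_mul_self]
      exact (E Q).one_mem
    · exact (E Q).mul_mem (Subgroup.subset_closure hx) (Subgroup.subset_closure hx)
  | one => exact (E Q).mul_mem (E Q).one_mem (E Q).one_mem
  | mul x y hx hy ihx ihy =>
    rw [← O_eq_closure hG.nondeg] at hx hy
    have h1 : x * y * (x * y) = x * x * (x⁻¹ * y * x⁻¹⁻¹ * y⁻¹) * (y * y) := by group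
    rw [h1]
    refine (E Q).mul_mem ((E Q).mul_mem ihx ?_) ihy
    rw [← hG.commutator_eq_E]
    exact Subgroup.commutator_mem_commutator ((O Q).inv_mem hx) hy
  | inv x _ ihx =>
    have h1 : x⁻¹ * x⁻¹ = (x * x)⁻¹ := by rw [mul_inv_rev]
    rw [h1]
    exact (E Q).inv_mem ihx

section Ad

variable {F : Type*} [Field F] {m : ℕ} (j : Fin m)

/-- the space -/
abbrev Vo (m : ℕ) (F : Type*) := Unit ⊕ (Fin m ⊕ Fin m) → F

/-- the conjugation action of a matrix on the matrices of trace zero -/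
def adL (B : Matrix (Fin 2) (Fin 2) F) : Vo m F →ₗ[F] Vo m F where
  toFun v := fun t => match t with
    | Sum.inl _ => ((B 0 0 * B 1 1 + B 0 1 * B 1 0) * v (Sum.inl ()) + B 0 1 * B 1 1 * v (Sum.inr (Sum.inr j))
        - B 0 0 * B 1 0 * v (Sum.inr (Sum.inl j))) / (B 0 0 * B 1 1 - B 0 1 * B 1 0)
    | Sum.inr (Sum.inl k) => if k = j then (B 0 0 ^ 2 * v (Sum.inr (Sum.inl j)) - 2 * B 0 0 * B 0 1 * v (Sum.inl ())
        - B 0 1 ^ 2 * v (Sum.inr (Sum.inr j))) / (B 0 0 * B 1 1 - B 0 1 * B 1 0) else v (Sum.inr (Sum.inl k))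
    | Sum.inr (Sum.inr k) => if k = j then (2 * B 1 0 * B 1 1 * v (Sum.inl ()) + B 1 1 ^ 2 * v (Sum.inr (Sum.inr j))
        - B 1 0 ^ 2 * v (Sum.inr (Sum.inl j))) / (B 0 0 * B 1 1 - B 0 1 * B 1 0) else v (Sum.inr (Sum.inr k))
  map_add' v w := by
    funext t
    rcases t with t | (k | k)
    · simp only [Pi.add_apply]; ring
    · simp only [Pi.add_apply]; split_ifs <;> ring
    · simp only [Pi.add_apply]; split_ifs <;> ring
  map_smul' c v := by
    funext t
    rcases t with t | (k | k)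
    · simp only [Pi.smul_apply, smul_eq_mul, RingHom.id_apply]; ring
    · simp only [Pi.smul_apply, smul_eq_mul, RingHom.id_apply]; split_ifs <;> ring
    · simp only [Pi.smul_apply, smul_eq_mul, RingHom.id_apply]; split_ifs <;> ring

theorem adL_z (B : Matrix (Fin 2) (Fin 2) F) (v : Vo m F) : adL j B v (Sum.inl ()) =
    ((B 0 0 * B 1 1 + B 0 1 * B 1 0) * v (Sum.inl ()) + B 0 1 * B 1 1 * v (Sum.inr (Sum.inr j))
        - B 0 0 * B 1 0 * v (Sum.inr (Sum.inl j))) / (B 0 0 * B 1 1 - B 0 1 * B 1 0) := rfl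

theorem adL_x (B : Matrix (Fin 2) (Fin 2) F) (v : Vo m F) : adL j B v (Sum.inr (Sum.inl j)) =
    (B 0 0 ^ 2 * v (Sum.inr (Sum.inl j)) - 2 * B 0 0 * B 0 1 * v (Sum.inl ())
        - B 0 1 ^ 2 * v (Sum.inr (Sum.inr j))) / (B 0 0 * B 1 1 - B 0 1 * B 1 0) := if_pos rfl

theorem adL_y (B : Matrix (Fin 2) (Fin 2) F) (v : Vo m F) : adL j B v (Sum.inr (Sum.inr j)) =
    (2 * B 1 0 * B 1 1 * v (Sum.inl ()) + B 1 1 ^ 2 * v (Sum.inr (Sum.inr j))
        - B 1 0 ^ 2 * v (Sum.inr (Sum.inl j))) / (B 0 0 * B 1 1 - B 0 1 * B 1 0) := if_pos rfl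

theorem adL_x' (B : Matrix (Fin 2) (Fin 2) F) (v : Vo m F) {k : Fin m} (hk : k ≠ j) :
    adL j B v (Sum.inr (Sum.inl k)) = v (Sum.inr (Sum.inl k)) := if_neg hk

theorem adL_y' (B : Matrix (Fin 2) (Fin 2) F) (v : Vo m F) {k : Fin m} (hk : k ≠ j) :
    adL j B v (Sum.inr (Sum.inr k)) = v (Sum.inr (Sum.inr k)) := if_neg hk

theorem adL_mul {B C : Matrix (Fin 2) (Fin 2) F} (hB : B 0 0 * B 1 1 - B 0 1 * B 1 0 ≠ 0)
    (hC : C 0 0 * C 1 1 - C 0 1 * C 1 0 ≠ 0) (v : Vo m F) : adL j (B * C) v = adL j B (adL j C v) := by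
  have hBC : (B * C) 0 0 * (B * C) 1 1 - (B * C) 0 1 * (B * C) 1 0 =
      (B 0 0 * B 1 1 - B 0 1 * B 1 0) * (C 0 0 * C 1 1 - C 0 1 * C 1 0) := by
    simp only [Matrix.mul_apply, Fin.sum_univ_two]; ring
  funext t
  rcases t with t | (k | k)
  · cases t
    rw [adL_z, adL_z, adL_z, adL_x, adL_y, hBC]
    simp only [Matrix.mul_apply, Fin.sum_univ_two]
    field_simp
    ring
  · by_cases hk : k = j
    · subst hk
      rw [adL_x, adL_x, adL_z, adL_x, adL_y, hBC]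
      simp only [Matrix.mul_apply, Fin.sum_univ_two]
      field_simp
      ring
    · rw [adL_x' j _ _ hk, adL_x' j _ _ hk, adL_x' j _ _ hk]
  · by_cases hk : k = j
    · subst hk
      rw [adL_y, adL_y, adL_z, adL_x, adL_y, hBC]
      simp only [Matrix.mul_apply, Fin.sum_univ_two]
      field_simp
      ring
    · rw [adL_y' j _ _ hk, adL_y' j _ _ hk, adL_y' j _ _ hk]

theorem adL_one (v : Vo m F) : adL j 1 v = v := by
  funext t
  rcases t with t | (k | k)
  · cases t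
    rw [adL_z]; simp
  · by_cases hk : k = j
    · subst hk
      rw [adL_x]; simp
    · rw [adL_x' j _ _ hk]
  · by_cases hk : k = j
    · subst hk
      rw [adL_y]; simp
    · rw [adL_y' j _ _ hk]

theorem det_ne (B : GL (Fin 2) F) : B.1 0 0 * B.1 1 1 - B.1 0 1 * B.1 1 0 ≠ 0 := by
  rw [← Matrix.det_fin_two]
  exact (Matrix.isUnit_iff_isUnit_det _).1 ⟨B, rfl⟩ |>.ne_zero

/-- **`GL₂(F)` on `<e_j, f_j, w>`.** -/
def adE : GL (Fin 2) F →* (Vo m F ≃ₗ[F] Vo m F) where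
  toFun B := LinearEquiv.ofLinearMap (adL j B.1) (adL j (B⁻¹).1)
    (by
      refine LinearMap.ext fun v => ?_
      show adL j B.1 (adL j (B⁻¹).1 v) = v
      rw [← adL_mul j (det_ne B) (det_ne B⁻¹), ← Units.val_mul, mul_inv_cancel]
      exact adL_one j v)
    (by
      refine LinearMap.ext fun v => ?_
      show adL j (B⁻¹).1 (adL j B.1 v) = v
      rw [← adL_mul j (det_ne B⁻¹) (det_ne B), ← Units.val_mul, inv_mul_cancel]
      exact adL_one j v)
  map_one' := by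
    ext1 v
    exact adL_one j v
  map_mul' B C := by
    ext1 v
    exact adL_mul j (det_ne B) (det_ne C) v

theorem adE_apply (B : GL (Fin 2) F) (v : Vo m F) : adE j B v = adL j B.1 v := rfl

theorem sum_split (g : Fin m → F) : ∑ k, g k = g j + ∑ k ∈ Finset.univ.erase j, g k :=
  (Finset.add_sum_erase _ _ (Finset.mem_univ j)).symm

theorem adE_mem_O (B : GL (Fin 2) F) : adE j B ∈ O (oddForm m F) := by
  intro v
  rw [coe_oddForm, quadFormOdd_apply, quadFormOdd_apply, sum_split j, sum_split j]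
  have h1 : ∑ k ∈ Finset.univ.erase j, adE j B v (Sum.inr (Sum.inl k)) * adE j B v (Sum.inr (Sum.inr k)) =
      ∑ k ∈ Finset.univ.erase j, v (Sum.inr (Sum.inl k)) * v (Sum.inr (Sum.inr k)) :=
    Finset.sum_congr rfl fun k hk => by
      rw [adE_apply, adL_x' j _ _ (Finset.ne_of_mem_erase hk), adL_y' j _ _ (Finset.ne_of_mem_erase hk)]
  rw [h1, adE_apply, adL_x, adL_y, adL_z]
  have := det_ne B
  field_simp
  ring

end Ad

section Odd

variable {F : Type*} [Field F] {m : ℕ}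

theorem h_true (v : Vo m F) (k : Fin m) : (HO (oddForm m F)).h v ((toFrame (wodd m F)).b (k, true)) =
    v (Sum.inr (Sum.inr k)) := by
  rw [toFrame_b_true, HO_h, polar_oddForm]
  simp [wodd, Pi.single_apply]

theorem h_false (v : Vo m F) (k : Fin m) : (HO (oddForm m F)).h v ((toFrame (wodd m F)).b (k, false)) =
    v (Sum.inr (Sum.inl k)) := by
  rw [toFrame_b_false, HO_h, polar_oddForm]
  simp [wodd, Pi.single_apply]

theorem mem_Mid_odd {i : Fin m} {v : Vo m F} : v ∈ Mid (toFrame (wodd m F)) i ↔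
    ∀ k ≤ i, v (Sum.inr (Sum.inl k)) = 0 ∧ v (Sum.inr (Sum.inr k)) = 0 := by
  constructor
  · intro h k hk
    exact ⟨(h_false v k).symm.trans (h k hk false), (h_true v k).symm.trans (h k hk true)⟩
  · intro h k hk s
    cases s
    · rw [h_false]; exact (h k hk).1
    · rw [h_true]; exact (h k hk).2

theorem nd_odd (h2 : (2 : F) ≠ 0) {v : Vo m F} (h : ∀ w, (HO (oddForm m F)).h v w = 0) : v = 0 :=
  nondeg_oddForm m F h2 v h

theorem h_self {v : Vo m F} (v' : Vo m F) : (HO (oddForm m F)).h v v' = 2 * v (Sum.inl ()) * v' (Sum.inl ()) +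
    ∑ k : Fin m, (v (Sum.inr (Sum.inl k)) * v' (Sum.inr (Sum.inr k)) +
      v' (Sum.inr (Sum.inl k)) * v (Sum.inr (Sum.inr k))) := polar_oddForm m F v v'

theorem iso_odd_last (h2 : (2 : F) ≠ 0) {i : Fin m} (hi : i.1 + 1 = m) (U : Submodule F (Vo m F))
    (hU : U ≤ Mid (toFrame (wodd m F)) i) (h0 : ∀ x ∈ U, ∀ y ∈ U, (HO (oddForm m F)).h x y = 0) : U = ⊥ := by
  rw [eq_bot_iff]
  intro x hx
  rw [Submodule.mem_bot]
  have h1 : ∀ k : Fin m, x (Sum.inr (Sum.inl k)) = 0 ∧ x (Sum.inr (Sum.inr k)) = 0 := fun k =>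
    mem_Mid_odd.1 (hU hx) k (by rw [Fin.le_def]; omega)
  have h3 := h0 x hx x hx
  rw [h_self, Finset.sum_eq_zero fun k _ => by rw [(h1 k).1, (h1 k).2]; ring, add_zero] at h3
  have h4 : x (Sum.inl ()) = 0 := by
    rcases mul_eq_zero.1 h3 with h5 | h5
    · exact (mul_eq_zero.1 h5).resolve_left h2
    · exact h5
  funext t
  rcases t with t | (k | k)
  · exact h4
  · exact (h1 k).1
  · exact (h1 k).2

theorem iso_odd {i j : Fin m} (h2 : (2 : F) ≠ 0) (hi : i.1 + 2 = m) (hj : j.1 + 1 = m) {C : GL (Fin 2) F}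
    (hC : Anis C.1) (U : Submodule F (Vo m F)) (hU : U ≤ Mid (toFrame (wodd m F)) i)
    (h0 : ∀ x ∈ U, ∀ y ∈ U, (HO (oddForm m F)).h x y = 0) (hD : ∀ x ∈ U, adE j C x ∈ U) : U = ⊥ := by
  rw [eq_bot_iff]
  intro x hx
  have h1 : ∀ k : Fin m, k ≠ j → x (Sum.inr (Sum.inl k)) = 0 ∧ x (Sum.inr (Sum.inr k)) = 0 := fun k hk =>
    mem_Mid_odd.1 (hU hx) k (by
      rw [Fin.le_def]
      have : k.1 ≠ j.1 := fun h => hk (Fin.ext h)
      omega)
  set X := x (Sum.inr (Sum.inl j)) with hX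
  set Y := x (Sum.inr (Sum.inr j)) with hY
  set Z := x (Sum.inl ()) with hZ
  have hs : ∀ v' : Vo m F, (HO (oddForm m F)).h x v' = 2 * Z * v' (Sum.inl ()) +
      (X * v' (Sum.inr (Sum.inr j)) + v' (Sum.inr (Sum.inl j)) * Y) := by
    intro v'
    rw [h_self, sum_split j, Finset.sum_eq_zero (s := Finset.univ.erase j) fun k hk => by
      rw [(h1 k (Finset.ne_of_mem_erase hk)).1, (h1 k (Finset.ne_of_mem_erase hk)).2]; ring, add_zero]
  have h3 := h0 x hx x hx
  rw [hs] at h3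
  have h4 : Z ^ 2 = -(X * Y) := by
    have h5 : (2 : F) * (Z ^ 2 + X * Y) = 0 := by
      rw [← h3]; ring
    have h6 := (mul_eq_zero.1 h5).resolve_left h2
    linear_combination h6
  have h5 := h0 x hx _ (hD x hx)
  rw [hs, adE_apply, adL_x, adL_y, adL_z, ← hX, ← hY, ← hZ] at h5
  have hd := det_ne C
  have h6 : (C.1 1 0 * X + (C.1 0 0 - C.1 1 1) * Z + C.1 0 1 * Y) ^ 2 = 0 := by
    field_simp at h5
    linear_combination (-1 : F) * h5 + ((C.1 0 0 - C.1 1 1) ^ 2 + 2 * (C.1 0 0 * C.1 1 1 + C.1 0 1 * C.1 1 0)) * h4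
  have h7 := pow_eq_zero_iff (two_ne_zero) |>.1 h6
  obtain ⟨hX0, hZ0⟩ := hC X Z (by linear_combination X * h7 - C.1 0 1 * h4)
  obtain ⟨-, hY0⟩ := hC Z (-Y) (by linear_combination C.1 1 0 * h4 - Y * h7)
  rw [Submodule.mem_bot]
  funext t
  rcases t with t | (k | k)
  · exact hZ0
  · by_cases hk : k = j
    · subst hk; exact hX0
    · exact (h1 k hk).1
  · by_cases hk : k = j
    · subst hk; exact neg_eq_zero.1 hY0
    · exact (h1 k hk).2

theorem comp_odd {i j : Fin m} (hij : i < j) {C : GL (Fin 2) F} {s : ℕ} (hC : C ^ s = 1) :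
    Comp (toFrame (wodd m F)) i s (adE j C) where
  iso v w := polar_map (adE_mem_O j C) v w
  fix k hk b := by
    have hkj : j ≠ k := by intro h; rw [← h] at hk; exact absurd (lt_of_lt_of_le hij hk) (lt_irrefl _)
    rw [adE_apply]
    funext t
    have e1 : (toFrame (wodd m F)).b (k, b) (Sum.inl ()) = 0 := by cases b <;> simp [toFrame, wodd]
    have e2 : (toFrame (wodd m F)).b (k, b) (Sum.inr (Sum.inl j)) = 0 := by
      cases b
      · simp [toFrame, wodd]
      · simp [toFrame, wodd, hkj]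
    have e3 : (toFrame (wodd m F)).b (k, b) (Sum.inr (Sum.inr j)) = 0 := by
      cases b
      · simp [toFrame, wodd, hkj]
      · simp [toFrame, wodd]
    rcases t with t | (l | l)
    · cases t
      rw [adL_z, e1, e2, e3]; simp
    · by_cases hl : l = j
      · subst hl
        rw [adL_x, e1, e2, e3]; simp
      · rw [adL_x' j _ _ hl]
    · by_cases hl : l = j
      · subst hl
        rw [adL_y, e1, e2, e3]; simp
      · rw [adL_y' j _ _ hl]
  pow v _ := by rw [← map_pow, hC, map_one]; rfl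

theorem mem_O_of_iso (h2 : (2 : F) ≠ 0) {g : Vo m F ≃ₗ[F] Vo m F} (hg : (HO (oddForm m F)).IsIso g) :
    g ∈ O (oddForm m F) := by
  intro v
  have h1 := hg v v
  rw [HO_h, HO_h, polar_self', polar_self'] at h1
  exact mul_left_cancel₀ h2 h1

theorem odd_card (F : Type*) [Field F] [Finite F] (h2 : (2 : F) ≠ 0) : Odd (Nat.card F) := by
  have : Fintype F := Fintype.ofFinite F
  rw [Nat.card_eq_fintype_card, Nat.odd_iff]
  refine FiniteField.odd_card_of_char_ne_two fun h => h2 ?_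
  have := ringChar.Nat.cast_ringChar (R := F)
  rw [h] at this
  exact_mod_cast this

theorem three_le (F : Type*) [Field F] [Finite F] (h2 : (2 : F) ≠ 0) : 3 ≤ Nat.card F := by
  have h1 := odd_card F h2
  have h3 : 1 < Nat.card F := Finite.one_lt_card
  obtain ⟨k, hk⟩ := h1
  omega

theorem good_odd [Finite F] (h2 : (2 : F) ≠ 0) (hm : 2 ≤ m) : LieClassical.OrthTrans.Good (oddForm m F) := by
  apply OrthFinite.good_of_finite (nondeg_oddForm m F h2)
  rw [Module.finrank_fintype_fun_eq_card, Fintype.card_sum, Fintype.card_sum, Fintype.card_fin,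
    Fintype.card_unit]
  omega

theorem adm_odd (m : ℕ) (F : Type*) [Field F] : ∃ p : (toFrame (wodd m F)).Adm, p.c ≠ 0 := by
  refine ⟨(embOdd m F).ngt ⟨1, -1 ^ 2, rfl⟩, ?_⟩
  change (1 : F)⁻¹ * (-1 ^ 2) ≠ 0
  simp

variable [Finite F] {W : Type*} [Group W] (cs : CoxeterSystem (CoxeterMatrix.B m) W) (h2 : (2 : F) ≠ 0)
  (hG : LieClassical.OrthTrans.Good (oddForm m F)) (hp : ∃ p : (toFrame (wodd m F)).Adm, p.c ≠ 0)

include h2

/-- **`J = {m - 1}ᶜ = A_(m-1)`.** -/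
theorem odd_last (hm : m = 3 ∨ m = 4) {i : Fin m} (hi : i.1 + 1 = m) :
    ∃ t t' : POmega F ⇑(oddForm m F), Ell cs (isCartan m) (WittModel.T (model (wodd m F) hG hp))
      (WittModel.X (model (wodd m F) hG hp)) {i}ᶜ t ∧
      Ell cs (isCartan m) (WittModel.T (model (wodd m F) hG hp)) (WittModel.X (model (wodd m F) hG hp)) {i}ᶜ t' ∧
      ¬ IsConj t t' := by
  obtain ⟨p, hcp⟩ := CharP.exists F
  have hpp : Fact p.Prime := ⟨(CharP.char_is_prime_or_zero F p).resolve_right (CharP.char_ne_zero_of_finite F p)⟩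
  have hq := three_le F h2
  obtain ⟨p0, hp0⟩ := hp
  refine exists_two (M := model (wodd m F) hG ⟨p0, hp0⟩) (p := p) (AmbT.of_amb (amb_O_of_two _ h2) p) hp0
    (by omega) cs (fun _ => rfl) i (comp_one (toFrame (wodd m F)) i) (fun U hU h0 _ => iso_odd_last h2 hi U hU h0)
    (nd_of fun v h => nd_odd h2 h)
    (e := 2) (fun g hg _ _ => ?_) (a := 1) (b := 2) ?_ ?_ ?_
  · rw [mul_one, pow_two]
    exact sq_mem_EQ hG (mem_O_of_iso h2 hg)
  all_goals rw [hi]; try rw [show 1 * 2 = 2 by norm_num]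
  all_goals try rw [show 2 * 2 = 4 by norm_num]
  all_goals rcases hm with rfl | rfl
  · exact good3 hq (Or.inl rfl) (Or.inl rfl)
  · exact good4 hq (Or.inl rfl)
  · exact good3 hq (Or.inl rfl) (Or.inr rfl)
  · exact good4 hq (Or.inr rfl)
  · exact pair3 hq (Or.inl rfl)
  · exact pair4 hq

/-- **`J = {m - 2}ᶜ = A_(m-2) × A_1`.** -/
theorem odd_pen (hm : m = 4 ∨ m = 3 ∧ 7 ≤ Nat.card F) {i : Fin m} (hi : i.1 + 2 = m) :
    ∃ t t' : POmega F ⇑(oddForm m F), Ell cs (isCartan m) (WittModel.T (model (wodd m F) hG hp))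
      (WittModel.X (model (wodd m F) hG hp)) {i}ᶜ t ∧
      Ell cs (isCartan m) (WittModel.T (model (wodd m F) hG hp)) (WittModel.X (model (wodd m F) hG hp)) {i}ᶜ t' ∧
      ¬ IsConj t t' := by
  obtain ⟨p, hcp⟩ := CharP.exists F
  have hpp : Fact p.Prime := ⟨(CharP.char_is_prime_or_zero F p).resolve_right (CharP.char_ne_zero_of_finite F p)⟩
  have hq := three_le F h2
  obtain ⟨p0, hp0⟩ := hp
  obtain ⟨C, hC1, hC, hB⟩ := exists_C F (p := p)
  obtain ⟨B, hB0, hB⟩ := hB (odd_card F h2)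
  let B' : GL (Fin 2) F := Matrix.GeneralLinearGroup.mkOfDetNeZero B hB0
  have hCB : (B' * B' : GL (Fin 2) F).1 = C.1 := hB.symm
  have hC' : Anis (B' * B' : GL (Fin 2) F).1 := by rw [hCB]; exact hC
  have hC1' : (B' * B') ^ (Nat.card F + 1) = 1 := by
    apply Units.ext
    rw [Units.val_pow_eq_pow_val, hCB, ← Matrix.SpecialLinearGroup.coe_pow, hC1]
    rfl
  obtain ⟨j, hj⟩ : ∃ j : Fin m, j.1 + 1 = m := ⟨⟨m - 1, by omega⟩, by change m - 1 + 1 = m; omega⟩
  have hij : i < j := by rw [Fin.lt_def]; omega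
  have key : ∀ (g : Vo m F ≃ₗ[F] Vo m F), (HO (oddForm m F)).IsIso g →
      g * adE j (B' * B') = adE j (B' * B') * g → (∀ v ∈ Mid (toFrame (wodd m F)) i, g v = v) →
      g ^ 2 * adE j (B' * B') ∈ (model (wodd m F) hG ⟨p0, hp0⟩).I := fun g hg _ _ => by
    rw [pow_two, map_mul]
    exact (E (oddForm m F)).mul_mem (sq_mem_EQ hG (mem_O_of_iso h2 hg)) (sq_mem_EQ hG (adE_mem_O j B'))
  rcases hm with rfl | ⟨rfl, hq7⟩
  · refine exists_two (M := model (wodd 4 F) hG ⟨p0, hp0⟩) (p := p) (AmbT.of_amb (amb_O_of_two _ h2) p) hp0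
      (by omega) cs (fun _ => rfl) i (comp_odd hij hC1') (iso_odd h2 hi hj hC') (nd_of fun v h => nd_odd h2 h)
      (e := 2) key (a := 1) (b := 2) ?_ ?_ ?_
    all_goals rw [show (i : ℕ) + 1 = 3 by omega]; try rw [show 1 * 2 = 2 by norm_num]
    all_goals try rw [show 2 * 2 = 4 by norm_num]
    · exact good3 hq (Or.inr rfl) (Or.inl rfl)
    · exact good3 hq (Or.inr rfl) (Or.inr rfl)
    · exact pair3 hq (Or.inr rfl)
  · refine exists_two (M := model (wodd 3 F) hG ⟨p0, hp0⟩) (p := p) (AmbT.of_amb (amb_O_of_two _ h2) p) hp0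
      (by omega) cs (fun _ => rfl) i (comp_odd hij hC1') (iso_odd h2 hi hj hC') (nd_of fun v h => nd_odd h2 h)
      (e := 2) key (a := 1) (b := 2) ?_ ?_ ?_
    all_goals rw [show (i : ℕ) + 1 = 2 by omega]; try rw [show 1 * 2 = 2 by norm_num]
    all_goals try rw [show 2 * 2 = 4 by norm_num]
    · exact good2' hq7 (Or.inl rfl)
    · exact good2' hq7 (Or.inr rfl)
    · exact pair2' hq7

end Odd

end Cfsg.Agent.H410.OZ
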