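import Cfsg.Agent.H410.OZ.OmE

/-!
# S4842: elliptic elements of `POmega_7(q)`, `q ≥ 5` odd, `J = {1}ᶜ` (helper410)

`γ` a generator of the multiplicative group of the field with `q²` elements, `A` its matrix: the element
`t = gl γ * adE 2 A` is an element of `E Q` (`gl_mul_adE_mem`), `t` and `t²` are elliptic and not conjugate.
-/

set_option autoImplicit false
set_option linter.unusedSectionVars false

namespace Cfsg.Agent.H410.OZ

open CoxeterSystem Cfsg.Agent.ChevalleyStructure.CoxeterGeom Cfsg.Agent.Tits.Roots Cfsg.Agent.Nodes.TypeC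
open Cfsg.Agent.Nodes Cfsg.Agent.Nodes.Comb Cfsg.Agent.Nodes.Reps Cfsg.Agent.Nodes.WittRoot Cfsg.Agent.Nodes.BNOf
open Cfsg.Agent.Nodes.WittRGD Cfsg.Agent.Nodes.RGDLib Cfsg.Agent.Nodes.WittAll
open Cfsg.Agent.TitsThree Cfsg.Agent.TitsThree.Siegel Cfsg.Agent.TitsThree.WittFrame
  Cfsg.Agent.TitsThree.WittWeyl Cfsg.Agent.TitsThree.FrameCN
open Cfsg.Agent.Nodes.StabComb Cfsg.Agent.Nodes.Bruhat Cfsg.Agent.Nodes.LeviDec
open Cfsg.Agent.H62.PCFrame Cfsg.Agent.H62.PCWitt Cfsg.Agent.H985.VZ Module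
open QuadraticMap Cfsg.Agent.LieClassical Cfsg.Agent.LieClassical.OrthCore Cfsg.Agent.LieClassical.OrthForms
open Cfsg.Agent.TitsThree.KSideO Cfsg.Agent.TitsThree.WBridge Cfsg.Agent.Nodes.WittU Cfsg.Agent.Nodes.WittInst
open Cfsg.Agent.H62.FrameSL Cfsg.Agent.ChevalleyStructure.SL2Hom
open scoped MatrixGroups

section Frame

variable {F : Type*} [Field F] {V : Type*} [AddCommGroup V] [Module F V] {H : HForm F V} {n : ℕ}
  {Fr : Frame H (Fin n)} {i : Fin n}

/-- isometries which agree on `E` and the middle and preserve the opposite subspace are equal -/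
theorem eq_of_E {g g' : V ≃ₗ[F] V} (hg : H.IsIso g) (hg' : H.IsIso g') (hE : ∀ x ∈ RS Fr (Si i), g x = g' x)
    (hE' : ∀ x ∈ RS Fr (Si i), ∃ y ∈ RS Fr (Si i), g y = x) (hF : ∀ x ∈ RS Fr (Ni i), g x ∈ RS Fr (Ni i))
    (hF' : ∀ x ∈ RS Fr (Ni i), g' x ∈ RS Fr (Ni i)) (hM : ∀ w ∈ Mid Fr i, g w = g' w) : g = g' := by
  have h1 : ∀ x ∈ RS Fr (Ni i), g x = g' x := by
    intro x hx
    refine sub_eq_zero.1 (eq_zero_of_F_Pp (Submodule.sub_mem _ (hF x hx) (hF' x hx)) fun k hk => ?_)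
    obtain ⟨y, hy, e⟩ := hE' (Fr.b (k, true)) (b_mem ⟨hk, rfl⟩)
    rw [← e, H.sub_left]
    conv_lhs => rw [hg x y]
    conv_lhs =>
      arg 2
      rw [hE y hy, hg' x y]
    exact sub_self _
  ext v
  obtain ⟨x, hx, y, hy, w, hw, rfl⟩ := exists_decomp (Fr := Fr) i v
  change g (x + y + w) = g' (x + y + w)
  simp only [map_add, hE x hx, h1 y hy, hM w hw]

variable {L : Type*} [Field L] [Algebra F L] {β : Basis {k : Fin n // k ≤ i} F L} {s : ℕ} {D : V ≃ₗ[F] V}

theorem gl_comm (hD : Comp Fr i s D) (z : Lˣ) : gl Fr β z * D = D * gl Fr β z := by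
  ext v
  obtain ⟨x, hx, y, hy, w, hw, rfl⟩ := exists_decomp (Fr := Fr) i v
  obtain ⟨x, rfl⟩ := exists_eE β hx
  obtain ⟨l, rfl⟩ := exists_fF β hy
  change gl Fr β z (D (eE Fr β x + fF Fr β l + w)) = D (gl Fr β z (eE Fr β x + fF Fr β l + w))
  simp only [map_add, hD.eE, hD.fF, gl_eE, gl_fF, gl_Mid _ hw, gl_Mid _ (hD.mid hw)]

end Frame

section Tor

variable {F : Type*} [Field F] {m : ℕ}

/-- `diag (d, 1)` -/
noncomputable def dgl (d : Fˣ) : GL (Fin 2) F :=
  Matrix.GeneralLinearGroup.mkOfDetNeZero !![(d : F), 0; 0, 1] (by rw [Matrix.det_fin_two_of]; simp)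

theorem adE_SL (j : Fin m) (h2 : (2 : F) ≠ 0) (hG : LieClassical.OrthTrans.Good (oddForm m F)) (S : SL(2, F)) :
    adE j (Matrix.SpecialLinearGroup.toGL S) ∈ E (oddForm m F) := by
  have h1 : Subgroup.closure (Set.range (up (F := F)) ∪ Set.range (lo (F := F))) ≤
      (E (oddForm m F)).comap ((adE j).comp Matrix.SpecialLinearGroup.toGL) := by
    rw [Subgroup.closure_le]
    rintro _ (⟨a, rfl⟩ | ⟨a, rfl⟩)
    · have e : up a = up (a / 2) * up (a / 2) := by
        apply Subtype.ext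
        change !![1, a; 0, 1] = !![1, a / 2; 0, 1] * !![1, a / 2; 0, 1]
        rw [Matrix.mul_fin_two]
        congr 1
        simp
        field_simp
        ring
      change adE j (Matrix.SpecialLinearGroup.toGL (up a)) ∈ E (oddForm m F)
      rw [e, map_mul, map_mul]
      exact sq_mem_EQ hG (adE_mem_O j _)
    · have e : lo a = lo (a / 2) * lo (a / 2) := by
        apply Subtype.ext
        change !![1, 0; a, 1] = !![1, 0; a / 2, 1] * !![1, 0; a / 2, 1]
        rw [Matrix.mul_fin_two]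
        congr 1
        simp
        field_simp
        ring
      change adE j (Matrix.SpecialLinearGroup.toGL (lo a)) ∈ E (oddForm m F)
      rw [e, map_mul, map_mul]
      exact sq_mem_EQ hG (adE_mem_O j _)
  exact h1 (mem_closure_SL2 S)

theorem phiS_E {i j : Fin m} (hij : i ≠ j) (S : SL(2, F)) :
    phiS (toFrame (wodd m F)) hij S ∈ E (oddForm m F) := by
  have h1 : (phiS (toFrame (wodd m F)) hij).range ≤ E (oddForm m F) := by
    rw [phiS_range]
    refine sup_le ?_ ?_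
    · rintro _ ⟨t, rfl⟩
      exact X_mem _ _ _ _
    · rintro _ ⟨t, rfl⟩
      exact X_mem _ _ _ _
  exact h1 ⟨S, rfl⟩

theorem dgl_val (d : Fˣ) : (dgl d).1 = !![(d : F), 0; 0, 1] := rfl

theorem tt_z (k : Fin m) (d : Fˣ) (v : Vo m F) : adE k (dgl d) v (Sum.inl ()) = v (Sum.inl ()) := by
  rw [adE_apply, adL_z, dgl_val]
  have := d.ne_zero
  simp

theorem tt_x (k : Fin m) (d : Fˣ) (v : Vo m F) : adE k (dgl d) v (Sum.inr (Sum.inl k)) = d * v (Sum.inr (Sum.inl k)) := by
  rw [adE_apply, adL_x, dgl_val]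
  have := d.ne_zero
  simp
  field_simp

theorem tt_y (k : Fin m) (d : Fˣ) (v : Vo m F) :
    adE k (dgl d) v (Sum.inr (Sum.inr k)) = (d : F)⁻¹ * v (Sum.inr (Sum.inr k)) := by
  rw [adE_apply, adL_y, dgl_val]
  have := d.ne_zero
  simp
  field_simp

/-- `diag (d, d⁻¹)` -/
def dSL (d : Fˣ) : SL(2, F) := ⟨!![(d : F), 0; 0, (d : F)⁻¹], by
  rw [Matrix.det_fin_two_of, mul_inv_cancel₀ d.ne_zero]; simp⟩

theorem b_x (k l : Fin m) (s : Bool) : (toFrame (wodd m F)).b (k, s) (Sum.inr (Sum.inl l)) =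
    if s = true ∧ l = k then 1 else 0 := by
  cases s <;> simp [toFrame, wodd, Pi.single_apply]

theorem b_y (k l : Fin m) (s : Bool) : (toFrame (wodd m F)).b (k, s) (Sum.inr (Sum.inr l)) =
    if s = false ∧ l = k then 1 else 0 := by
  cases s <;> simp [toFrame, wodd, Pi.single_apply]

theorem b_z (k : Fin m) (s : Bool) : (toFrame (wodd m F)).b (k, s) (Sum.inl ()) = 0 := by
  cases s <;> simp [toFrame, wodd]

theorem tt_eq {k j : Fin m} (hkj : k ≠ j) (d : Fˣ) :
    adE k (dgl d) = phiS (toFrame (wodd m F)) hkj (dSL d) * adE j (dgl d) := by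
  have hd := d.ne_zero
  refine LinearEquiv.ext fun v => ?_
  change _ = phiS (toFrame (wodd m F)) hkj (dSL d) (adE j (dgl d) v)
  rw [phiS_apply, linS_apply]
  simp only [h_true, h_false]
  have e1 : ((1 : F))⁻¹ = 1 := inv_one
  have hε : (HO (oddForm m F)).ε = 1 := rfl
  have hσ : ∀ a : F, (HO (oddForm m F)).σ a = a := fun _ => rfl
  have hjk := hkj.symm
  funext t
  rcases t with t | (l | l)
  · cases t
    simp only [Pi.add_apply, Pi.smul_apply, b_z, smul_zero, add_zero, tt_z]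
  · simp only [Pi.add_apply, Pi.smul_apply, b_x]
    by_cases hl : l = k
    · subst hl
      rw [tt_x]
      simp only [adE_apply, adL_x' j _ _ hkj]
      simp [dSL, hkj]
      ring
    · by_cases hl' : l = j
      · subst hl'
        rw [tt_x]
        simp only [adE_apply, adL_x' k _ _ hl]
        simp [dSL, hl]
        field_simp
        ring
      · simp only [adE_apply, adL_x' k _ _ hl, adL_x' j _ _ hl']
        simp [hl, hl']
  · simp only [Pi.add_apply, Pi.smul_apply, b_y]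
    by_cases hl : l = k
    · subst hl
      rw [tt_y]
      simp only [adE_apply, adL_y' j _ _ hkj]
      simp [dSL, hkj, hε, hσ]
      ring
    · by_cases hl' : l = j
      · subst hl'
        rw [tt_y]
        simp only [adE_apply, adL_y' k _ _ hl]
        simp [dSL, hl, hε, hσ]
        field_simp
        ring
      · simp only [adE_apply, adL_y' k _ _ hl, adL_y' j _ _ hl']
        simp [hl, hl']

theorem tt_bt (k : Fin m) (d : Fˣ) :
    adE k (dgl d) ((toFrame (wodd m F)).b (k, true)) = (d : F) • (toFrame (wodd m F)).b (k, true) := by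
  funext t
  rcases t with t | (l | l)
  · cases t
    rw [tt_z, Pi.smul_apply, b_z]; simp
  · by_cases hl : l = k
    · subst hl
      rw [tt_x, Pi.smul_apply, smul_eq_mul]
    · rw [adE_apply, adL_x' _ _ _ hl, Pi.smul_apply, b_x]; simp [hl]
  · by_cases hl : l = k
    · subst hl
      rw [tt_y, Pi.smul_apply, b_y]; simp
    · rw [adE_apply, adL_y' _ _ _ hl, Pi.smul_apply, b_y]; simp

theorem tt_bf (k : Fin m) (d : Fˣ) :
    adE k (dgl d) ((toFrame (wodd m F)).b (k, false)) = (d : F)⁻¹ • (toFrame (wodd m F)).b (k, false) := by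
  funext t
  rcases t with t | (l | l)
  · cases t
    rw [tt_z, Pi.smul_apply, b_z]; simp
  · by_cases hl : l = k
    · subst hl
      rw [tt_x, Pi.smul_apply, b_x]; simp
    · rw [adE_apply, adL_x' _ _ _ hl, Pi.smul_apply, b_x]; simp
  · by_cases hl : l = k
    · subst hl
      rw [tt_y, Pi.smul_apply, smul_eq_mul]
    · rw [adE_apply, adL_y' _ _ _ hl, Pi.smul_apply, b_y]; simp [hl]

theorem tt_fix (k : Fin m) (d : Fˣ) {v : Vo m F} (hx : v (Sum.inr (Sum.inl k)) = 0) (hy : v (Sum.inr (Sum.inr k)) = 0) :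
    adE k (dgl d) v = v := by
  funext t
  rcases t with t | (l | l)
  · cases t
    rw [tt_z]
  · by_cases hl : l = k
    · subst hl
      rw [tt_x, hx, mul_zero]
    · rw [adE_apply, adL_x' _ _ _ hl]
  · by_cases hl : l = k
    · subst hl
      rw [tt_y, hy, mul_zero]
    · rw [adE_apply, adL_y' _ _ _ hl]

/-- the matrix as a product -/
theorem exists_SL (A : GL (Fin 2) F) : ∃ (S : SL(2, F)) (d : Fˣ), A = Matrix.SpecialLinearGroup.toGL S * dgl d ∧
    S.1 0 0 = A.1 0 0 * (d : F)⁻¹ ∧ S.1 1 0 = A.1 1 0 * (d : F)⁻¹ ∧ S.1 0 1 = A.1 0 1 ∧ S.1 1 1 = A.1 1 1 := by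
  set d : Fˣ := Units.mk0 _ (det_ne A) with hd
  have hd0 : (d : F) = A.1 0 0 * A.1 1 1 - A.1 0 1 * A.1 1 0 := rfl
  have hdn := d.ne_zero
  have hdet : (!![A.1 0 0 * (d : F)⁻¹, A.1 0 1; A.1 1 0 * (d : F)⁻¹, A.1 1 1]).det = 1 := by
    rw [Matrix.det_fin_two_of]
    field_simp
    rw [hd0]
  refine ⟨⟨_, hdet⟩, d, ?_, rfl, rfl, rfl, rfl⟩
  apply Units.ext
  rw [Units.val_mul, dgl_val]
  change _ = !![A.1 0 0 * (d : F)⁻¹, A.1 0 1; A.1 1 0 * (d : F)⁻¹, A.1 1 1] * !![(d : F), 0; 0, 1]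
  rw [Matrix.mul_fin_two]
  ext a b
  fin_cases a <;> fin_cases b <;> simp

/-- the product of the elements of the two factors -/
theorem prod_mem {k l j : Fin m} (hkl : k ≠ l) (hkj : k ≠ j) (h2 : (2 : F) ≠ 0)
    (hG : LieClassical.OrthTrans.Good (oddForm m F)) {S : SL(2, F)} {d : Fˣ} (S' : SL(2, F)) :
    phiS (toFrame (wodd m F)) hkl S' * adE k (dgl d) *
      adE j (Matrix.SpecialLinearGroup.toGL S * dgl d) ∈ E (oddForm m F) := by
  rw [map_mul]
  have e : phiS (toFrame (wodd m F)) hkl S' * adE k (dgl d) * (adE j (Matrix.SpecialLinearGroup.toGL S) * adE j (dgl d)) =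
      phiS (toFrame (wodd m F)) hkl S' * (adE k (dgl d) * adE j (Matrix.SpecialLinearGroup.toGL S) * (adE k (dgl d))⁻¹) *
        (adE k (dgl d) * (adE j (dgl d))⁻¹) * (adE j (dgl d) * adE j (dgl d)) := by group
  rw [e]
  refine mul_mem (mul_mem (mul_mem (phiS_E hkl S') ?_) ?_) ?_
  · exact conj_mem_E (adE_mem_O k _) (adE_SL j h2 hG S)
  · rw [tt_eq hkj, mul_inv_cancel_right]
    exact phiS_E hkj _
  · exact sq_mem_EQ hG (adE_mem_O j _)

end Tor

section Main

variable {F : Type*} [Field F]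

/-- the basis of the plane -/
def e2 : Fin 2 ≃ {k : Fin 3 // k ≤ 1} where
  toFun x := ⟨x.castSucc, by revert x; decide⟩
  invFun k := ⟨k.1.1, by have h1 := k.2; rw [Fin.le_def] at h1; change k.1.1 ≤ 1 at h1; omega⟩
  left_inv x := by revert x; decide
  right_inv k := by revert k; decide

theorem gl_eq {L : Type*} [Field L] [Algebra F L] (b2 : Basis (Fin 2) F L) (z : Lˣ) (A : GL (Fin 2) F)
    (hA : A.1 = Algebra.leftMulMatrix b2 (z : L)) {S : SL(2, F)} {d : Fˣ}
    (h00 : S.1 0 0 = A.1 0 0 * (d : F)⁻¹) (h10 : S.1 1 0 = A.1 1 0 * (d : F)⁻¹) (h01 : S.1 0 1 = A.1 0 1)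
    (h11 : S.1 1 1 = A.1 1 1) (hne : (0 : Fin 3) ≠ 1) :
    gl (toFrame (wodd 3 F)) (b2.reindex e2) z = phiS (toFrame (wodd 3 F)) hne S * adE 0 (dgl d) := by
  have hd := d.ne_zero
  have hb : ∀ k : Fin 2, (z : L) * b2 k = A.1 0 k • b2 0 + A.1 1 k • b2 1 := by
    intro k
    rw [← b2.sum_repr ((z : L) * b2 k), Fin.sum_univ_two, hA, Algebra.leftMulMatrix_eq_repr_mul,
      Algebra.leftMulMatrix_eq_repr_mul]
  have hβ : ∀ k : Fin 2, (b2.reindex e2) (e2 k) = b2 k := fun k => by rw [Basis.reindex_apply, Equiv.symm_apply_apply]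
  have hE2 : ∀ k : Fin 2, gl (toFrame (wodd 3 F)) (b2.reindex e2) z ((toFrame (wodd 3 F)).b ((e2 k).1, true)) =
      A.1 0 k • (toFrame (wodd 3 F)).b (0, true) + A.1 1 k • (toFrame (wodd 3 F)).b (1, true) := by
    intro k
    rw [← eE_basis (β := b2.reindex e2), gl_eE, hβ, hb, map_add, map_smul, map_smul, ← hβ 0, ← hβ 1, eE_basis, eE_basis]
    rfl
  refine eq_of_E (Fr := toFrame (wodd 3 F)) (i := (1 : Fin 3)) (isIso_gl (fun _ => rfl) z) ?_ ?_ ?_ ?_ ?_ ?_
  · intro v w
    exact polar_map (mul_mem (E_le_O (phiS_E hne S)) (adE_mem_O 0 _)) v w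
  · intro x hx
    refine Submodule.span_induction (p := fun x _ => gl (toFrame (wodd 3 F)) (b2.reindex e2) z x =
      (phiS (toFrame (wodd 3 F)) hne S * adE 0 (dgl d) : Vo 3 F ≃ₗ[F] Vo 3 F) x) ?_ ?_ ?_ ?_ hx
    · rintro _ ⟨⟨k, s⟩, ⟨hk, hs⟩, rfl⟩
      change k ≤ 1 at hk
      change s = true at hs
      subst hs
      have hk' : k = 0 ∨ k = 1 := by revert k; decide
      rcases hk' with rfl | rfl
      · refine (hE2 0).trans ?_
        change _ = phiS (toFrame (wodd 3 F)) hne S (adE 0 (dgl d) ((toFrame (wodd 3 F)).b (0, true)))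
        rw [tt_bt, map_smul, phiS_e, smul_add, smul_smul, smul_smul, h00, h10]
        congr 2 <;> field_simp
      · refine (hE2 1).trans ?_
        change _ = phiS (toFrame (wodd 3 F)) hne S (adE 0 (dgl d) ((toFrame (wodd 3 F)).b (1, true)))
        rw [tt_fix 0 d (by rw [b_x]; simp) (by rw [b_y]; simp), phiS_e', h01, h11]
    · rw [map_zero, map_zero]
    · intro x y _ _ hx hy
      rw [map_add, map_add, hx, hy]
    · intro c x _ hx
      rw [map_smul, map_smul, hx]
  · intro x hx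
    obtain ⟨x, rfl⟩ := exists_eE (b2.reindex e2) hx
    exact ⟨eE (toFrame (wodd 3 F)) (b2.reindex e2) ((z⁻¹ : Lˣ) * x), eE_mem _, by
      rw [gl_eE, ← mul_assoc, ← Units.val_mul, mul_inv_cancel, Units.val_one, one_mul]⟩
  · intro x hx
    obtain ⟨l, rfl⟩ := exists_fF (b2.reindex e2) hx
    rw [gl_fF]
    exact fF_mem _
  · have h3 : ∀ x ∈ RS (toFrame (wodd 3 F)) (Ni 1), phiS (toFrame (wodd 3 F)) hne S x ∈
        RS (toFrame (wodd 3 F)) (Ni 1) := by
      intro x hx
      have h4 : ∀ l : Fin 3, (HO (oddForm 3 F)).h x ((toFrame (wodd 3 F)).b (l, false)) = 0 := fun l =>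
        h_left_zero (fun a ha => (toFrame (wodd 3 F)).hb_ne fun e => by
          have h5 := ha.2
          have h6 : a.2 = false := h5
          have h7 := congrArg Prod.snd e
          rw [neg_snd, h6] at h7
          simp at h7) x hx
      rw [phiS_apply, linS_apply, h4, h4]
      simp only [mul_zero, add_zero, zero_smul]
      exact Submodule.add_mem _ (Submodule.add_mem _ hx (Submodule.smul_mem _ _ (b_mem ⟨by decide, rfl⟩)))
        (Submodule.smul_mem _ _ (b_mem ⟨by decide, rfl⟩))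
    intro x hx
    refine h3 _ ?_
    refine Submodule.span_induction (p := fun x _ => adE 0 (dgl d) x ∈ RS (toFrame (wodd 3 F)) (Ni 1)) ?_ ?_ ?_ ?_ hx
    · rintro _ ⟨⟨k, s⟩, ⟨hk, hs⟩, rfl⟩
      change k ≤ 1 at hk
      change s = false at hs
      subst hs
      by_cases hk0 : k = 0
      · subst hk0
        rw [tt_bf]
        exact Submodule.smul_mem _ _ (b_mem ⟨hk, rfl⟩)
      · rw [tt_fix 0 d (by rw [b_x]; simp) (by rw [b_y]; simp [Ne.symm hk0])]
        exact b_mem ⟨hk, rfl⟩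
    · rw [map_zero]; exact Submodule.zero_mem _
    · intro x y _ _ hx hy
      rw [map_add]; exact Submodule.add_mem _ hx hy
    · intro c x _ hx
      rw [map_smul]; exact Submodule.smul_mem _ _ hx
  · intro w hw
    have h0 := mem_Mid_odd.1 hw 0 (by decide)
    have h1 := mem_Mid_odd.1 hw 1 (by decide)
    rw [gl_Mid _ hw]
    change w = phiS (toFrame (wodd 3 F)) hne S (adE 0 (dgl d) w)
    rw [tt_fix 0 d h0.1 h0.2, phiS_apply, linS_apply]
    simp only [h_true, h_false, h0.1, h0.2, h1.1, h1.2]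
    simp

theorem Comp.sq {V : Type*} [AddCommGroup V] [Module F V] {H : HForm F V} {n : ℕ} {Fr : Frame H (Fin n)} {i : Fin n}
    {s : ℕ} {D : V ≃ₗ[F] V} (hD : Comp Fr i s D) : Comp Fr i s (D * D) where
  iso := HForm.IsIso.mul H hD.iso hD.iso
  fix k hk b := by
    change D (D _) = _
    rw [hD.fix k hk b, hD.fix k hk b]
  pow v hv := by
    rw [(Commute.refl D).mul_pow]
    change (D ^ s) ((D ^ s) v) = v
    rw [hD.pow v hv, hD.pow v hv]

theorem adL_scalar {m : ℕ} (j : Fin m) {c : F} (hc : c ≠ 0) (v : Vo m F) :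
    adL j (algebraMap F (Matrix (Fin 2) (Fin 2) F) c) v = v := by
  have e00 : algebraMap F (Matrix (Fin 2) (Fin 2) F) c 0 0 = c := by simp [Matrix.algebraMap_matrix_apply]
  have e01 : algebraMap F (Matrix (Fin 2) (Fin 2) F) c 0 1 = 0 := by simp [Matrix.algebraMap_matrix_apply]
  have e10 : algebraMap F (Matrix (Fin 2) (Fin 2) F) c 1 0 = 0 := by simp [Matrix.algebraMap_matrix_apply]
  have e11 : algebraMap F (Matrix (Fin 2) (Fin 2) F) c 1 1 = c := by simp [Matrix.algebraMap_matrix_apply]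
  funext t
  rcases t with t | (k | k)
  · cases t
    rw [adL_z, e00, e01, e10, e11]; field_simp; ring
  · by_cases hk : k = j
    · subst hk
      rw [adL_x, e00, e01, e10, e11]; field_simp; ring
    · rw [adL_x' j _ _ hk]
  · by_cases hk : k = j
    · subst hk
      rw [adL_y, e00, e01, e10, e11]; field_simp; ring
    · rw [adL_y' j _ _ hk]

theorem det_mul_ne {L : Type*} [Field L] [Algebra F L] (b : Basis (Fin 2) F L) {x : L} (hx : x ≠ 0) :
    (Algebra.leftMulMatrix b x).det ≠ 0 := by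
  intro h0
  have h1 : Algebra.leftMulMatrix b x * Algebra.leftMulMatrix b x⁻¹ = 1 := by
    rw [← map_mul, mul_inv_cancel₀ hx, map_one]
  have h2 := congrArg Matrix.det h1
  rw [Matrix.det_mul, h0, zero_mul, Matrix.det_one] at h2
  exact zero_ne_one h2

theorem anis_mul {L : Type*} [Field L] [Algebra F L] (b : Basis (Fin 2) F L) {w : L}
    (hw : ∀ l : F, w ≠ algebraMap F L l) : Anis (Algebra.leftMulMatrix b w) := by
  apply anis_of
  intro l hl
  apply det_mul_ne b (sub_ne_zero.2 (hw l))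
  rw [map_sub, AlgHom.commutes, Matrix.det_fin_two]
  simp only [Matrix.sub_apply, Matrix.algebraMap_matrix_apply]
  simp only [Algebra.algebraMap_self, RingHom.id_apply, if_true]
  have e1 : (if (0 : Fin 2) = 1 then l else 0) = 0 := if_neg (by decide)
  have e2 : (if (1 : Fin 2) = 0 then l else 0) = 0 := if_neg (by decide)
  rw [e1, e2, sub_zero, sub_zero]
  exact hl

variable [Finite F] {W : Type*} [Group W] (cs : CoxeterSystem (CoxeterMatrix.B 3) W) (h2 : (2 : F) ≠ 0)
  (hG : LieClassical.OrthTrans.Good (oddForm 3 F)) (hp : ∃ p : (toFrame (wodd 3 F)).Adm, p.c ≠ 0)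

include h2

/-- **`POmega_7(q)`, `q ≥ 5`, `J = {1}ᶜ = A_1 × A_1`.** -/
theorem odd_pen3 (hq : 4 ≤ Nat.card F) {i : Fin 3} (hi : i.1 + 2 = 3) :
    ∃ t t' : POmega F ⇑(oddForm 3 F), Ell cs (isCartan 3) (WittModel.T (model (wodd 3 F) hG hp))
      (WittModel.X (model (wodd 3 F) hG hp)) {i}ᶜ t ∧
      Ell cs (isCartan 3) (WittModel.T (model (wodd 3 F) hG hp)) (WittModel.X (model (wodd 3 F) hG hp)) {i}ᶜ t' ∧
      ¬ IsConj t t' := by
  obtain rfl : i = 1 := Fin.ext (by change i.1 = 1; omega)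
  obtain ⟨p, hcp⟩ := CharP.exists F
  have hpp : Fact p.Prime := ⟨(CharP.char_is_prime_or_zero F p).resolve_right (CharP.char_ne_zero_of_finite F p)⟩
  obtain ⟨p0, hp0⟩ := hp
  let L := FiniteField.Extension F p 2
  have hfr : finrank F L = 2 := FiniteField.finrank_extension F p 2
  have : FiniteDimensional F L := Module.Finite.of_finite
  let b2 : Basis (Fin 2) F L := finBasisOfFinrankEq F L hfr
  have hcL : Nat.card Lˣ = Nat.card F ^ 2 - 1 := by
    have h1 : Nat.card L = Nat.card F ^ 2 := FiniteField.natCard_extension F p 2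
    rw [Nat.card_units, h1]
  obtain ⟨γ, hγ⟩ := IsCyclic.exists_generator (α := Lˣ)
  have hord : orderOf γ = Nat.card F ^ 2 - 1 := by rw [orderOf_eq_card_of_forall_mem_zpowers hγ, hcL]
  have hnotF : ∀ k : ℕ, k = 1 ∨ k = 2 → ∀ l : F, (γ : L) ^ k ≠ algebraMap F L l := by
    intro k hk l hl
    have : Fintype F := Fintype.ofFinite F
    have hl0 : l ≠ 0 := by
      rintro rfl
      rw [map_zero] at hl
      exact pow_ne_zero _ γ.ne_zero hl
    have h3 : ((γ : L) ^ k) ^ (Nat.card F - 1) = 1 := by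
      rw [hl, ← map_pow, Nat.card_eq_fintype_card, FiniteField.pow_card_sub_one_eq_one _ hl0, map_one]
    rw [← pow_mul, ← Units.val_pow_eq_pow_val, Units.val_eq_one, ← orderOf_dvd_iff_pow_eq_one, hord] at h3
    obtain ⟨c, hc⟩ : ∃ c, Nat.card F = c + 4 := ⟨Nat.card F - 4, by omega⟩
    rw [hc] at h3
    have h4 : (c + 4) ^ 2 - 1 = (c + 3) * (c + 5) := by
      have : (c + 4) ^ 2 = (c + 3) * (c + 5) + 1 := by ring
      rw [this, Nat.add_sub_cancel]
    rw [h4, show c + 4 - 1 = c + 3 by omega] at h3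
    have h5 := Nat.le_of_dvd (by rcases hk with rfl | rfl <;> positivity) h3
    rcases hk with rfl | rfl <;> nlinarith
  set A' : GL (Fin 2) F := Matrix.GeneralLinearGroup.mkOfDetNeZero (Algebra.leftMulMatrix b2 (γ : L))
    (det_mul_ne b2 γ.ne_zero) with hA'
  have hA1 : A'.1 = Algebra.leftMulMatrix b2 (γ : L) := rfl
  have hAn : Anis A'.1 := by
    rw [hA1]
    exact anis_mul b2 fun l => by have := hnotF 1 (Or.inl rfl) l; rwa [pow_one] at this
  have hAn2 : Anis (A' * A').1 := by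
    rw [Units.val_mul, hA1, ← map_mul, ← pow_two]
    exact anis_mul b2 (hnotF 2 (Or.inr rfl))
  obtain ⟨S, d, hSd, h00, h10, h01, h11⟩ := exists_SL A'
  have hne : (0 : Fin 3) ≠ 1 := by decide
  have hm1 : gl (toFrame (wodd 3 F)) (b2.reindex e2) γ * adE 2 A' ∈ E (oddForm 3 F) := by
    rw [gl_eq b2 γ A' hA1 h00 h10 h01 h11 hne]
    have h9 := prod_mem (k := 0) (l := 1) (j := 2) hne (by decide) h2 hG (S := S) (d := d) S
    rwa [← hSd] at h9
  have hpow : (adE (2 : Fin 3) A') ^ (Nat.card F + 1) = 1 := by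
    rw [← map_pow]
    refine LinearEquiv.ext fun v => ?_
    rw [adE_apply, Units.val_pow_eq_pow_val, hA1, ← map_pow]
    have h3 : (γ : L) ^ (Nat.card F + 1) = algebraMap F L (Algebra.norm F (γ : L)) := by
      rw [FiniteField.algebraMap_norm_eq_pow_sum, hfr, Finset.sum_range_succ, Finset.sum_range_one, pow_zero, pow_one,
        add_comm]
    rw [h3, AlgHom.commutes]
    exact adL_scalar 2 (Algebra.norm_ne_zero_iff.2 γ.ne_zero) v
  have hij : (1 : Fin 3) < 2 := by decide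
  have hD : Comp (toFrame (wodd 3 F)) 1 (Nat.card F + 1) (adE 2 A') :=
    { iso := (comp_odd hij (s := 0) (pow_zero A')).iso
      fix := (comp_odd hij (s := 0) (pow_zero A')).fix
      pow := fun v _ => by rw [hpow]; rfl }
  have hD2 := hD.sq
  have hm2 : gl (toFrame (wodd 3 F)) (b2.reindex e2) (γ ^ 2) * (adE 2 A' * adE 2 A') ∈ E (oddForm 3 F) := by
    have e : gl (toFrame (wodd 3 F)) (b2.reindex e2) (γ ^ 2) * (adE 2 A' * adE 2 A') =
        gl (toFrame (wodd 3 F)) (b2.reindex e2) γ * adE 2 A' * (gl (toFrame (wodd 3 F)) (b2.reindex e2) γ * adE 2 A') := by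
      have hc := gl_comm (β := b2.reindex e2) hD γ
      rw [pow_two, map_mul]
      generalize gl (toFrame (wodd 3 F)) (b2.reindex e2) γ = g at hc ⊢
      generalize adE (2 : Fin 3) A' = E at hc ⊢
      calc g * g * (E * E) = g * (g * E) * E := by group
        _ = g * (E * g) * E := by rw [hc]
        _ = g * E * (g * E) := by group
    rw [e]
    exact mul_mem hm1 hm1
  have hm1' : gl (toFrame (wodd 3 F)) (b2.reindex e2) (γ ^ 1) * adE 2 A' ∈ E (oddForm 3 F) := by
    rw [pow_one]; exact hm1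
  have hA := AmbT.of_amb (amb_O_of_two (wodd 3 F) h2) p
  have g1 := good2 hq (Or.inl rfl : (1 : ℕ) = 1 ∨ (1 : ℕ) = 2)
  have g2 := good2 hq (Or.inr rfl : (2 : ℕ) = 1 ∨ (2 : ℕ) = 2)
  have g12 := pair2 hq
  refine ⟨toPOmega hG ⟨_, hm1'⟩, toPOmega hG ⟨_, hm2⟩, ?_, ?_, ?_⟩
  · exact ell_gl (M := model (wodd 3 F) hG ⟨p0, hp0⟩) hA hp0 (by omega) hD hm1' (g1.adjoin hord rfl hfr)
      (g1.ne hord) (g1.root hord rfl hfr) (iso_odd h2 hi rfl hAn) (nd_of fun v h => nd_odd h2 h)
  · refine ell_gl (M := model (wodd 3 F) hG ⟨p0, hp0⟩) hA hp0 (by omega) hD2 hm2 (g2.adjoin hord rfl hfr)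
      (g2.ne hord) (g2.root hord rfl hfr) ?_ (nd_of fun v h => nd_odd h2 h)
    rw [← map_mul]
    exact iso_odd h2 hi rfl hAn2
  · exact not_isConj_gl (M := model (wodd 3 F) hG ⟨p0, hp0⟩) hA (by omega) (fun _ => rfl) hD hD2 hm1' hm2
      (fun c hc => g12.root hord rfl hfr hc) (fun c hc => g12.root_inv hord rfl hfr hc) (fun c hc => g12.ne hord rfl hc)

end Main

end Cfsg.Agent.H410.OZ
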