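import Cfsg.Agent.H410.OZ.Ar
import Cfsg.Agent.H410.OZ.Mat
import Cfsg.Agent.H62.FrameSL
import Cfsg.Agent.TitsThree.KInstSp
import Cfsg.Agent.Nodes.WittInst

/-!
# S4842: elliptic elements of `PSp_{2m}(q)`, `m = 3, 4` (helper410)

`J = {i}ᶜ`, `i = m - 1` (torus `q ^ m - 1` of `GL_m`), `i = m - 2` (torus `(q ^ (m - 1) - 1) (q + 1)`).
-/

set_option autoImplicit false
set_option linter.unusedSectionVars false

namespace Cfsg.Agent.H410.OZ

open CoxeterSystem Cfsg.Agent.ChevalleyStructure.CoxeterGeom Cfsg.Agent.Tits.Roots Cfsg.Agent.Nodes.TypeC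
open Cfsg.Agent.Nodes Cfsg.Agent.Nodes.Comb Cfsg.Agent.Nodes.Reps Cfsg.Agent.Nodes.WittRoot Cfsg.Agent.Nodes.BNOf
open Cfsg.Agent.Nodes.WittRGD Cfsg.Agent.Nodes.RGDLib Cfsg.Agent.Nodes.WittAll
open Cfsg.Agent.TitsThree Cfsg.Agent.TitsThree.Siegel Cfsg.Agent.TitsThree.WittFrame
  Cfsg.Agent.TitsThree.WittWeyl Cfsg.Agent.TitsThree.FrameCN
open Cfsg.Agent.Nodes.StabComb Cfsg.Agent.Nodes.Bruhat Cfsg.Agent.Nodes.LeviDec
open Cfsg.Agent.H62.PCFrame Cfsg.Agent.H62.PCWitt Cfsg.Agent.H985.VZ Module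
open scoped MatrixGroups

section Frame

variable {F : Type*} [Field F] {V : Type*} [AddCommGroup V] [Module F V] {H : HForm F V} {n : ℕ}
  {Fr : Frame H (Fin n)} {i : Fin n}

theorem nd_of (h0 : ∀ v, (∀ w, H.h v w = 0) → v = 0) :
    ∀ v ∈ Mid Fr i, (∀ w ∈ Mid Fr i, H.h v w = 0) → v = 0 := by
  intro v hv h
  refine h0 v fun u => ?_
  obtain ⟨x, hx, y, hy, w, hw, rfl⟩ := exists_decomp (Fr := Fr) i u
  rw [H.add_right, H.add_right, Mid_E hv x hx, Mid_F hv y hy, h w hw, add_zero, add_zero]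

theorem comp_one (Fr : Frame H (Fin n)) (i : Fin n) : Comp Fr i 1 (1 : V ≃ₗ[F] V) where
  iso _ _ := rfl
  fix _ _ _ := rfl
  pow _ _ := rfl

end Frame

section Sp

open Cfsg.Agent.TitsThree.SpIdent Cfsg.Agent.H62.FrameSL Cfsg.Agent.ClassicalGeometry.SympBasic
open Cfsg.Agent.Nodes.WittInst Cfsg.Agent.Nodes.WittU

variable {F : Type*} [Field F] {m : ℕ}

theorem eq_zero_sp {v : Fin m ⊕ Fin m → F} (h : ∀ (k : Fin m) (s : Bool), (form m F).h v ((frame m F).b (k, s)) = 0) :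
    v = 0 := by
  funext j
  rcases j with k | k
  · have h1 := h k true
    rw [(form m F).swap, form_ε] at h1
    change (-1 : F) * sympForm m F (e m F k) v = 0 at h1
    rw [e, sympForm_single_inr_left] at h1
    simpa using h1
  · have h1 := h k false
    rw [(form m F).swap, form_ε] at h1
    change (-1 : F) * sympForm m F (f m F k) v = 0 at h1
    rw [f, sympForm_single_inl_left] at h1
    simpa using h1

theorem mid_sp {i : Fin m} (hi : i.1 + 1 = m) {v : Fin m ⊕ Fin m → F} (hv : v ∈ Mid (frame m F) i) : v = 0 :=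
  eq_zero_sp fun k s => hv k (by rw [Fin.le_def]; omega) s

theorem nd_sp {v : Fin m ⊕ Fin m → F} (h : ∀ w, (form m F).h v w = 0) : v = 0 := eq_zero_sp fun _ _ => h _

theorem phiL_isIso (j : Fin m) (g : SL(2, F)) : (form m F).IsIso (phiL (frame m F) j g) := by
  have h1 : (phiL (frame m F) j).range ≤ isos (form m F) := by
    rw [phiL_range]
    refine sup_le ?_ ?_
    · rintro _ ⟨t, rfl⟩
      exact (frame m F).isIso_Z _ _
    · rintro _ ⟨t, rfl⟩
      exact (frame m F).isIso_Z _ _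
  exact h1 ⟨g, rfl⟩

theorem phiL_fix {j k : Fin m} (hk : k ≠ j) (b : Bool) (g : SL(2, F)) :
    phiL (frame m F) j g ((frame m F).b (k, b)) = (frame m F).b (k, b) := by
  have h1 : (form m F).h ((frame m F).b (k, b)) ((frame m F).b (j, true)) = 0 := by
    rw [(frame m F).hb, if_neg fun h => hk h.1]
  have h2 : (form m F).h ((frame m F).b (k, b)) ((frame m F).b (j, false)) = 0 := by
    rw [(frame m F).hb, if_neg fun h => hk h.1]
  rw [phiL_apply, linL_apply, h1, h2]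
  simp

theorem comp_sp {i j : Fin m} (hij : i < j) {C : SL(2, F)} {s : ℕ} (hC : C ^ s = 1) :
    Comp (frame m F) i s (phiL (frame m F) j C) where
  iso := phiL_isIso j C
  fix k hk b := phiL_fix (by intro h; rw [h] at hk; exact absurd (lt_of_lt_of_le hij hk) (lt_irrefl _)) b C
  pow v _ := by rw [← map_pow, hC, map_one]; rfl

theorem iso_sp {i j : Fin m} (hi : i.1 + 2 = m) (hj : j.1 + 1 = m) {C : SL(2, F)} (hC : Anis C.1)
    (U : Submodule F (Fin m ⊕ Fin m → F)) (hU : U ≤ Mid (frame m F) i)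
    (h0 : ∀ x ∈ U, ∀ y ∈ U, (form m F).h x y = 0) (hD : ∀ x ∈ U, phiL (frame m F) j C x ∈ U) : U = ⊥ := by
  rw [eq_bot_iff]
  intro x hx
  have h1 := h0 x hx _ (hD x hx)
  rw [phiL_apply, linL_apply, (form m F).add_right, (form m F).add_right, (form m F).smul_right,
    (form m F).smul_right, h0 x hx x hx, form_ε, form_σ, form_σ] at h1
  set X := (form m F).h x ((frame m F).b (j, false)) with hX
  set Y := (form m F).h x ((frame m F).b (j, true)) with hY
  obtain ⟨hX0, hY0⟩ := hC X Y (by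
    have h2 : ((-1 : F))⁻¹ = -1 := by rw [inv_neg, inv_one]
    rw [h2] at h1
    linear_combination h1)
  rw [Submodule.mem_bot]
  refine eq_zero_sp fun k s => ?_
  by_cases hk : k = j
  · subst hk
    cases s
    · exact hX0
    · exact hY0
  · refine hU hx k ?_ s
    rw [Fin.le_def]
    have : k.1 ≠ j.1 := fun h => hk (Fin.ext h)
    omega

variable [Finite F] {p : ℕ} [Fact p.Prime] [CharP F p] {W : Type*} [Group W] (cs : CoxeterSystem (CoxeterMatrix.B m) W)

/-- **`J = {m - 1}ᶜ = A_(m-1)`.** -/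
theorem psp_last (hm : m = 3 ∨ m = 4) (hq : 3 ≤ Nat.card F) {i : Fin m} (hi : i.1 + 1 = m) :
    ∃ t t' : PSp m F, Ell cs (isCartan m) (WittModel.T (KInstSp.model m F)) (WittModel.X (KInstSp.model m F)) {i}ᶜ t ∧
      Ell cs (isCartan m) (WittModel.T (KInstSp.model m F)) (WittModel.X (KInstSp.model m F)) {i}ᶜ t' ∧
      ¬ IsConj t t' := by
  obtain ⟨p, hp⟩ := CharP.exists F
  have hpp : Fact p.Prime := ⟨(CharP.char_is_prime_or_zero F p).resolve_right (CharP.char_ne_zero_of_finite F p)⟩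
  have hmid : ∀ U : Submodule F (Fin m ⊕ Fin m → F), U ≤ Mid (frame m F) i → U = ⊥ := fun U hU => by
    rw [eq_bot_iff]
    intro x hx
    rw [Submodule.mem_bot]
    exact mid_sp hi (hU hx)
  refine exists_two (M := KInstSp.model m F) (p := p) (AmbT.of_amb amb_Sp p) (p0 := SpIdent.adm 1) one_ne_zero
    (by omega) cs (fun _ => rfl) i (comp_one (frame m F) i) (fun U hU _ _ => hmid U hU) (nd_of fun v h => nd_sp h)
    (e := 1) (fun g hg _ _ => ?_) (a := 2) (b := 4) ?_ ?_ ?_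
  · rw [pow_one, mul_one]
    exact hg
  all_goals rw [hi, mul_one]; try rw [mul_one]
  all_goals rcases hm with rfl | rfl
  · exact good3 hq (Or.inl rfl) (Or.inl rfl)
  · exact good4 hq (Or.inl rfl)
  · exact good3 hq (Or.inl rfl) (Or.inr rfl)
  · exact good4 hq (Or.inr rfl)
  · exact pair3 hq (Or.inl rfl)
  · exact pair4 hq

/-- **`J = {m - 2}ᶜ = A_(m-2) × A_1`.** -/
theorem psp_pen (hm : m = 4 ∧ 3 ≤ Nat.card F ∨ m = 3 ∧ 4 ≤ Nat.card F) {i : Fin m} (hi : i.1 + 2 = m) :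
    ∃ t t' : PSp m F, Ell cs (isCartan m) (WittModel.T (KInstSp.model m F)) (WittModel.X (KInstSp.model m F)) {i}ᶜ t ∧
      Ell cs (isCartan m) (WittModel.T (KInstSp.model m F)) (WittModel.X (KInstSp.model m F)) {i}ᶜ t' ∧
      ¬ IsConj t t' := by
  obtain ⟨p, hp⟩ := CharP.exists F
  have hpp : Fact p.Prime := ⟨(CharP.char_is_prime_or_zero F p).resolve_right (CharP.char_ne_zero_of_finite F p)⟩
  obtain ⟨C, hC1, hC, -⟩ := exists_C F (p := p)
  obtain ⟨j, hj⟩ : ∃ j : Fin m, j.1 + 1 = m := ⟨⟨m - 1, by omega⟩, by change m - 1 + 1 = m; omega⟩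
  have hij : i < j := by rw [Fin.lt_def]; omega
  have key : ∀ e : ℕ, ∀ (g : (Fin m ⊕ Fin m → F) ≃ₗ[F] (Fin m ⊕ Fin m → F)), (form m F).IsIso g →
      g * phiL (frame m F) j C = phiL (frame m F) j C * g → (∀ v ∈ Mid (frame m F) i, g v = v) →
      g ^ e * phiL (frame m F) j C ∈ (KInstSp.model m F).I := fun e g hg _ _ =>
    (KInstSp.model m F).I.mul_mem ((KInstSp.model m F).I.pow_mem hg e) (phiL_isIso j C)
  rcases hm with ⟨rfl, hq⟩ | ⟨rfl, hq⟩
  · refine exists_two (M := KInstSp.model 4 F) (p := p) (AmbT.of_amb amb_Sp p) (p0 := SpIdent.adm 1) one_ne_zero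
      (by omega) cs (fun _ => rfl) i (comp_sp hij hC1) (iso_sp hi hj hC) (nd_of fun v h => nd_sp h)
      (e := 1) (key 1) (a := 2) (b := 4) ?_ ?_ ?_
    all_goals rw [show (i : ℕ) + 1 = 3 by omega, mul_one]; try rw [mul_one]
    · exact good3 hq (Or.inr rfl) (Or.inl rfl)
    · exact good3 hq (Or.inr rfl) (Or.inr rfl)
    · exact pair3 hq (Or.inr rfl)
  · refine exists_two (M := KInstSp.model 3 F) (p := p) (AmbT.of_amb amb_Sp p) (p0 := SpIdent.adm 1) one_ne_zero
      (by omega) cs (fun _ => rfl) i (comp_sp hij hC1) (iso_sp hi hj hC) (nd_of fun v h => nd_sp h)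
      (e := 1) (key 1) (a := 1) (b := 2) ?_ ?_ ?_
    all_goals rw [show (i : ℕ) + 1 = 2 by omega, mul_one]; try rw [mul_one]
    · exact good2 hq (Or.inl rfl)
    · exact good2 hq (Or.inr rfl)
    · exact pair2 hq

end Sp

end Cfsg.Agent.H410.OZ
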